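import Cfsg.Agent.H31.TwoChar.LocalAlgebra
import Mathlib

/-!
# Algebras which are matrix algebras over their centre

A symmetric algebra with one-dimensional cocommutator space is a full matrix algebra, and an
algebra with matrix units modulo a nilpotent kernel whose dimension does not exceed the square of
the degree times that of its centre is generated by its centre on every ideal.
-/

set_option autoImplicit false
set_option linter.unusedSectionVars false

namespace Cfsg.Agent.H31.NormalDefectDegrees

open Module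
open Cfsg.Agent.H31.TwoChar (comm comm_mem card_simple_le exists_lift_matrix_units)

variable {k : Type*} [Field k] {A : Type*} [Ring A] [Algebra k A]

/-- A symmetric algebra with one-dimensional cocommutator space is a full matrix algebra. -/
theorem exists_matrix_of_comm_le_one [IsAlgClosed k] [FiniteDimensional k A] [Nontrivial A]
    (τ : A →ₗ[k] k) (hsym : ∀ a b, τ (a * b) = τ (b * a))
    (hnd : ∀ a, (∀ b, τ (a * b) = 0) → a = 0) (hk : finrank k (A ⧸ comm k A) ≤ 1) {f : ℕ}
    (hf : finrank k A = f ^ 2) :
    ∃ F : A →ₐ[k] Matrix (Fin f) (Fin f) k, Function.Bijective F := by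
  classical
  have hArt : IsArtinianRing A := IsArtinianRing.of_finite k A
  obtain ⟨d, dd, hdd, ⟨φ⟩⟩ :=
    IsSemisimpleRing.exists_algEquiv_pi_matrix_of_isAlgClosed k (A ⧸ Ring.jacobson A)
  let F := φ.toAlgHom.comp (Ideal.Quotient.mkₐ k (Ring.jacobson A))
  have hF : Function.Surjective F := φ.surjective.comp (Ideal.Quotient.mkₐ_surjective k _)
  set W := comm k A ⊔ LinearMap.ker F.toLinearMap
  have hcard : d ≤ finrank k (A ⧸ W) := by simpa using card_simple_le dd hdd F hF
  have hWle : finrank k (A ⧸ W) ≤ finrank k (A ⧸ comm k A) := by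
    have h1 := Submodule.finrank_quotient_add_finrank W
    have h2 := Submodule.finrank_quotient_add_finrank (comm k A)
    have h3 := Submodule.finrank_mono (s := comm k A) (t := W) le_sup_left
    omega
  rcases Nat.eq_zero_or_pos d with rfl | hd0
  · obtain ⟨N, hN⟩ : IsNilpotent (Ring.jacobson A) := IsSemiprimaryRing.isNilpotent
    have h1 : (1 : A) ∈ Ring.jacobson A := by
      rw [← Ideal.Quotient.eq_zero_iff_mem]
      exact φ.injective (Subsingleton.elim _ _)
    have := Ideal.pow_mem_pow h1 N
    rw [one_pow, hN] at this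
    exact absurd (by simpa using this) (one_ne_zero (α := A))
  obtain rfl : d = 1 := by omega
  have hWeq : comm k A = W := Submodule.eq_of_le_of_finrank_le le_sup_left (by
    have h1 := Submodule.finrank_quotient_add_finrank W
    have h2 := Submodule.finrank_quotient_add_finrank (comm k A)
    omega)
  have hτcomm : ∀ x ∈ comm k A, τ x = 0 := by
    intro x hx
    refine Submodule.span_induction (p := fun y _ => τ y = 0) ?_ (map_zero τ)
      (fun a b _ _ ha hb => by rw [map_add, ha, hb, add_zero])
      (fun r a _ ha => by rw [map_smul, ha, smul_zero]) hx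
    rintro _ ⟨⟨a, b⟩, rfl⟩
    rw [map_sub, hsym, sub_self]
  have hinj : Function.Injective F := by
    rw [injective_iff_map_eq_zero]
    intro a ha
    refine hnd a fun b => hτcomm _ (hWeq ▸ Submodule.mem_sup_right ?_)
    show F (a * b) = 0
    rw [map_mul, ha, zero_mul]
  let π : A →ₐ[k] Matrix (Fin (dd 0)) (Fin (dd 0)) k := (Pi.evalAlgHom k _ 0).comp F
  have hπinj : Function.Injective π := fun a b h => hinj (funext fun i => by
    rw [Fin.fin_one_eq_zero i]; exact h)
  have hπsurj : Function.Surjective π := fun Y => by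
    obtain ⟨a, ha⟩ := hF fun i => (Fin.fin_one_eq_zero i).symm ▸ Y
    exact ⟨a, by simp [π, ha]⟩
  have hdim : dd 0 = f := by
    have h := (LinearEquiv.ofBijective π.toLinearMap ⟨hπinj, hπsurj⟩).finrank_eq
    rw [hf, Module.finrank_matrix, Fintype.card_fin, Module.finrank_self, mul_one, ← sq] at h
    exact (Nat.pow_left_injective (by norm_num) h).symm
  exact ⟨(Matrix.reindexAlgEquiv k k (finCongr hdim)).toAlgHom.comp π,
    (Matrix.reindexAlgEquiv k k (finCongr hdim)).bijective.comp ⟨hπinj, hπsurj⟩⟩

/-- An algebra with matrix units modulo a nilpotent kernel and no larger than the matrix algebra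
over its centre: every element of a two-sided ideal is a combination of central elements of the
ideal. -/
theorem mem_span_center_ideal [FiniteDimensional k A] {ι : Type*} [Nonempty ι] {f : ℕ}
    (π : A →ₐ[k] ι → Matrix (Fin (f + 1)) (Fin (f + 1)) k) (hπ : Function.Surjective π)
    (hnil : ∀ a, π a = 0 → IsNilpotent a)
    (hdim : finrank k A ≤ (f + 1) ^ 2 * finrank k (Subalgebra.center k A))
    (K : Submodule k A) (hKl : ∀ a, ∀ y ∈ K, a * y ∈ K) (hKr : ∀ a, ∀ y ∈ K, y * a ∈ K)
    {y : A} (hy : y ∈ K) :
    y ∈ Submodule.span k {w | ∃ z r, (∀ a, a * z = z * a) ∧ z ∈ K ∧ w = z * r} := by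
  classical
  let Dg : Matrix (Fin (f + 1)) (Fin (f + 1)) k →ₐ[k] ι → Matrix (Fin (f + 1)) (Fin (f + 1)) k :=
    Pi.constAlgHom k ι _
  let A' : Subalgebra k A := Dg.range.comap π
  obtain ⟨i0⟩ := ‹Nonempty ι›
  let π' : A' →ₐ[k] Matrix (Fin (f + 1)) (Fin (f + 1)) k :=
    ((Pi.evalAlgHom k _ i0).comp π).comp A'.val
  have hπ' : Function.Surjective π' := fun Y => by
    obtain ⟨a, ha⟩ := hπ (Dg Y)
    refine ⟨⟨a, ⟨Y, ha.symm⟩⟩, ?_⟩
    show π a i0 = Y
    rw [ha]
    rfl
  have hnil' : ∀ a : A', π' a = 0 → IsNilpotent a := fun a ha => by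
    obtain ⟨Y, hY⟩ := a.2
    have hY' : Dg Y = π a := hY
    have h0 : Y = 0 := by
      have : π a i0 = 0 := ha
      rwa [← hY'] at this
    obtain ⟨N, hN⟩ := hnil (a : A) (by rw [← hY', h0, map_zero])
    exact ⟨N, Subtype.ext (by simpa using hN)⟩
  obtain ⟨u', v', e', he', -, huv', hvu'', hu0', hv0', heu', hve', hue', hev'⟩ :=
    exists_lift_matrix_units π' hπ' hnil'
  let u : Fin (f + 1) → A := fun i => (u' i : A)
  let v : Fin (f + 1) → A := fun i => (v' i : A)
  let e : Fin (f + 1) → A := fun i => (e' i : A)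
  have hcomp : ∑ i, e i = 1 := by
    have := congrArg Subtype.val he'.complete
    simpa [e] using this
  have huv : ∀ i, u i * v i = e i := fun i => congrArg Subtype.val (huv' i)
  have hue : ∀ i, u i * e 0 = u i := fun i => congrArg Subtype.val (hue' i)
  have hev : ∀ i, e 0 * v i = v i := fun i => congrArg Subtype.val (hev' i)
  have hvu : ∀ a b, v a * u b = if a = b then e 0 else 0 := fun a b => by
    by_cases h : a = b
    · subst h
      rw [if_pos rfl]
      exact congrArg Subtype.val (hvu'' a)
    · rw [if_neg h]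
      have hveA : v a * e a = v a := congrArg Subtype.val (hve' a)
      have heuA : e b * u b = u b := congrArg Subtype.val (heu' b)
      have hab : e a * e b = 0 := congrArg Subtype.val (he'.ortho h)
      rw [← hveA, ← heuA, mul_assoc, ← mul_assoc (e a), hab, zero_mul, mul_zero]
  set Z := Subalgebra.center k A
  have hcz : ∀ (z : Z) a, a * (z : A) = (z : A) * a := fun z a => Subalgebra.mem_center_iff.1 z.2 a
  let Φ : (Fin (f + 1) → Fin (f + 1) → Z) →ₗ[k] A :=
    { toFun := fun g => ∑ i, ∑ j, u i * (g i j : A) * v j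
      map_add' := fun g g' => by simp [mul_add, add_mul, Finset.sum_add_distrib]
      map_smul' := fun r g => by simp [Finset.smul_sum] }
  have hrec : ∀ (g : Fin (f + 1) → Fin (f + 1) → Z) a b, v a * Φ g * u b = (g a b : A) * e 0 := by
    intro g a b
    show v a * (∑ i, ∑ j, u i * (g i j : A) * v j) * u b = _
    rw [Finset.mul_sum, Finset.sum_mul, Finset.sum_eq_single a, Finset.mul_sum, Finset.sum_mul,
      Finset.sum_eq_single b]
    · rw [← mul_assoc, ← mul_assoc, mul_assoc _ (v b), hvu a a, hvu b b, if_pos rfl, if_pos rfl,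
        hcz (g a b) (e 0), mul_assoc]
      exact congrArg _ (congrArg Subtype.val (he'.idem 0).eq)
    · intro j _ hj
      rw [← mul_assoc, ← mul_assoc, mul_assoc _ (v j), hvu j b, if_neg hj, mul_zero]
    · simp
    · intro i _ hi
      simp [Finset.mul_sum, ← mul_assoc, hvu a i, if_neg (Ne.symm hi)]
    · simp
  have hspread : ∀ z : Z, (z : A) = ∑ i, u i * ((z : A) * e 0) * v i := fun z => by
    calc (z : A) = ∑ i, (z : A) * e i := by rw [← Finset.mul_sum, hcomp, mul_one]
      _ = _ := Finset.sum_congr rfl fun i _ => by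
        rw [← mul_assoc (u i), hcz z (u i), mul_assoc (z : A) (u i), hue, mul_assoc, huv]
  have hinj : Function.Injective Φ := by
    rw [injective_iff_map_eq_zero]
    intro g hg
    funext a b
    refine Subtype.ext ?_
    show (g a b : A) = 0
    have h := hrec g a b
    rw [hg, mul_zero, zero_mul] at h
    rw [hspread, ← h]
    simp
  have hsurj : Function.Surjective Φ := by
    have hfr : finrank k (Fin (f + 1) → Fin (f + 1) → Z) = (f + 1) ^ 2 * finrank k Z := by
      simp [Module.finrank_pi_fintype, sq, mul_assoc]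
    have h1 : LinearMap.range Φ = ⊤ := Submodule.eq_top_of_finrank_eq (le_antisymm
      (Submodule.finrank_le _) (by rw [LinearMap.finrank_range_of_inj hinj, hfr]; exact hdim))
    exact LinearMap.range_eq_top.1 h1
  obtain ⟨g, hg⟩ := hsurj y
  have hgK : ∀ a b, (g a b : A) ∈ K := fun a b => by
    rw [hspread, ← hrec g a b, hg]
    exact Submodule.sum_mem _ fun i _ => hKr _ _ (hKl _ _ (hKr _ _ (hKl _ _ hy)))
  rw [← hg]
  show (∑ i, ∑ j, u i * (g i j : A) * v j) ∈ _
  refine Submodule.sum_mem _ fun i _ => Submodule.sum_mem _ fun j _ => Submodule.subset_span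
    ⟨(g i j : A), u i * v j, hcz (g i j), hgK i j, ?_⟩
  rw [hcz (g i j) (u i), mul_assoc]

end Cfsg.Agent.H31.NormalDefectDegrees
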