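import Cfsg.Agent.H40.ClassSum
import Mathlib

/-!
# The algebra cut out of a group algebra by a central idempotent
-/

set_option autoImplicit false
set_option linter.unusedSectionVars false

namespace Cfsg.Agent.H31.NormalDefectDegrees

open Module

variable {k : Type*} [Field k] {G : Type*} [Group G] [Finite G] {e : MonoidAlgebra k G}
  (hc : ∀ a, a * e = e * a)

/-- The annihilator of a central element. -/
def cornerIdeal : Ideal (MonoidAlgebra k G) where
  carrier := {a | a * e = 0}
  add_mem' := fun {a b} ha hb => by
    simp only [Set.mem_ofPred_eq] at ha hb ⊢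
    rw [add_mul, ha, hb, add_zero]
  zero_mem' := zero_mul _
  smul_mem' := fun c a ha => by
    simp only [Set.mem_ofPred_eq, smul_eq_mul] at ha ⊢
    rw [mul_assoc, ha, mul_zero]

include hc in
theorem cornerIdeal_isTwoSided : (cornerIdeal (e := e)).IsTwoSided := ⟨fun {a} b ha => by
  show a * b * e = 0
  rw [mul_assoc, hc b, ← mul_assoc, show a * e = 0 from ha, zero_mul]⟩

variable [(cornerIdeal (e := e)).IsTwoSided]

variable (e) in
/-- The algebra `k[G] e`, as a quotient of `k[G]`. -/
abbrev Corner := MonoidAlgebra k G ⧸ cornerIdeal (e := e)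

variable (e) in
/-- The projection to the corner algebra. -/
noncomputable abbrev cornerMk : MonoidAlgebra k G →ₐ[k] Corner e :=
  Ideal.Quotient.mkₐ k (cornerIdeal (e := e))

theorem cornerMk_surjective : Function.Surjective (cornerMk e) := Ideal.Quotient.mkₐ_surjective _ _

theorem cornerMk_eq_zero {a : MonoidAlgebra k G} : cornerMk e a = 0 ↔ a * e = 0 :=
  Ideal.Quotient.eq_zero_iff_mem

variable (e) in
/-- An element of the corner algebra as an element of the group algebra. -/
noncomputable def cornerVal : Corner e →ₗ[k] MonoidAlgebra k G :=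
  ((cornerIdeal (e := e)).restrictScalars k).liftQ (LinearMap.mulRight k e) (fun _ ha => ha) ∘ₗ
    (Submodule.Quotient.restrictScalarsEquiv k (cornerIdeal (e := e))).symm.toLinearMap

theorem cornerVal_mk (a : MonoidAlgebra k G) : cornerVal e (cornerMk e a) = a * e := rfl

theorem cornerVal_injective : Function.Injective (cornerVal e) := by
  rw [injective_iff_map_eq_zero]
  intro x hx
  obtain ⟨a, rfl⟩ := cornerMk_surjective x
  exact cornerMk_eq_zero.2 (by rwa [cornerVal_mk] at hx)

instance : FiniteDimensional k (Corner e) := by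
  have : FiniteDimensional k (MonoidAlgebra k G) :=
    Module.Finite.of_basis (MonoidAlgebra.basis G k)
  exact Module.Finite.of_surjective (cornerMk e).toLinearMap cornerMk_surjective

theorem finrank_corner :
    finrank k (Corner e) = finrank k (LinearMap.range (LinearMap.mulRight k e)) := by
  have h : LinearMap.range (cornerVal e) = LinearMap.range (LinearMap.mulRight k e) := by
    refine le_antisymm ?_ ?_
    · rintro _ ⟨x, rfl⟩
      obtain ⟨a, rfl⟩ := cornerMk_surjective x
      exact ⟨a, (cornerVal_mk a).symm⟩
    · rintro _ ⟨a, rfl⟩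
      exact ⟨cornerMk e a, cornerVal_mk a⟩
  rw [← h, LinearMap.finrank_range_of_inj cornerVal_injective]

variable (hee : e * e = e)

include hc hee in
theorem cornerMk_mul_self (a : MonoidAlgebra k G) : cornerMk e (a * e) = cornerMk e a :=
  cornerVal_injective (by rw [cornerVal_mk, cornerVal_mk, mul_assoc, hee])

include hc hee in
theorem cornerVal_mul (x y : Corner e) : cornerVal e (x * y) = cornerVal e x * cornerVal e y := by
  obtain ⟨a, rfl⟩ := cornerMk_surjective x
  obtain ⟨b, rfl⟩ := cornerMk_surjective y
  rw [← map_mul, cornerVal_mk, cornerVal_mk, cornerVal_mk]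
  calc a * b * e = a * b * (e * e) := by rw [hee]
    _ = a * (b * e) * e := by simp only [mul_assoc]
    _ = a * (e * b) * e := by rw [hc b]
    _ = _ := by simp only [mul_assoc]

theorem finrank_map_center :
    finrank k ((Subalgebra.toSubmodule (Subalgebra.center k (Corner e))).map (cornerVal e)) =
      finrank k (Subalgebra.center k (Corner e)) :=
  ((Subalgebra.toSubmodule (Subalgebra.center k (Corner e))).equivMapOfInjective (cornerVal e)
    cornerVal_injective).finrank_eq.symm

include hc hee in
theorem map_center_le {w : MonoidAlgebra k G}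
    (hw : w ∈ (Subalgebra.toSubmodule (Subalgebra.center k (Corner e))).map (cornerVal e)) :
    (∀ a, a * w = w * a) ∧ w * e = w := by
  obtain ⟨x, hx, rfl⟩ := hw
  rw [SetLike.mem_coe, Subalgebra.mem_toSubmodule, Subalgebra.mem_center_iff] at hx
  obtain ⟨a, rfl⟩ := cornerMk_surjective x
  rw [cornerVal_mk]
  refine ⟨fun b => ?_, by rw [mul_assoc, hee]⟩
  have h := congrArg (cornerVal e) (hx (cornerMk e b))
  rw [cornerVal_mul hc hee, cornerVal_mul hc hee, cornerVal_mk, cornerVal_mk] at h
  calc b * (a * e) = b * e * (a * e) := by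
        rw [mul_assoc b e, ← mul_assoc e a e, ← hc a, mul_assoc a e e, hee]
    _ = a * e * (b * e) := h
    _ = a * e * b := by rw [mul_assoc a e (b * e), ← mul_assoc e b e, ← hc b, mul_assoc b e e, hee,
      mul_assoc a e b, hc b]

/-- The coefficient at the identity on the corner algebra. -/
noncomputable def cornerForm : Corner e →ₗ[k] k :=
  ({ toFun := fun a => a.coeff 1
     map_add' := fun a b => by simp
     map_smul' := fun r a => by simp } : MonoidAlgebra k G →ₗ[k] k) ∘ₗ cornerVal e

include hc hee in
theorem cornerForm_symm (x y : Corner e) : cornerForm (x * y) = cornerForm (y * x) := by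
  have := Fintype.ofFinite G
  show (cornerVal e (x * y)).coeff 1 = (cornerVal e (y * x)).coeff 1
  rw [cornerVal_mul hc hee, cornerVal_mul hc hee, H40.coeff_mul_eq_sum, H40.coeff_mul_eq_sum]
  exact Fintype.sum_equiv (Equiv.inv G) _ _ fun z => by simp [mul_comm]

include hc hee in
theorem cornerForm_nondeg {x : Corner e} (hx : ∀ y, cornerForm (x * y) = 0) : x = 0 := by
  obtain ⟨a, rfl⟩ := cornerMk_surjective x
  refine cornerVal_injective ?_
  rw [map_zero, cornerVal_mk]
  refine H40.ext_coeff fun g => ?_
  have h : (cornerVal e (cornerMk e a * cornerMk e (MonoidAlgebra.single g⁻¹ 1))).coeff 1 = 0 :=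
    hx _
  rw [← map_mul, cornerVal_mk, mul_assoc, hc, ← mul_assoc] at h
  simpa using h

end Cfsg.Agent.H31.NormalDefectDegrees
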