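import Cfsg.Agent.H31.NormalDefectDegrees.GroupAlgebra
import Cfsg.Agent.H31.TwoChar.RankOneSmall

/-!
# Centrally generated kernels force a trivial action

For a normal elementary abelian `p`-subgroup `V` of `G`, an additive function `l` on `V` gives a
linear map from `k[G]` to `k[G ⧸ V]` which is multiplicative over the kernel of the quotient map.
It shows that if the kernel in a block is generated by central elements, the stabiliser of a block
element supported on the centraliser of `V` centralises `V`.
-/

set_option autoImplicit false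
set_option linter.unusedSectionVars false

namespace Cfsg.Agent.H31.NormalDefectDegrees

open Cfsg.Agent.H22 (cj cut emb Supp Inv IsCent IsBlockEl Split)
open MonoidAlgebra (single)

variable {k : Type*} [Field k] {G : Type*} [Group G] [Finite G] {V : Subgroup G}

section Vmap

variable [V.Normal]

/-- The component in `V` of an element, for fixed coset representatives. -/
noncomputable def vPart (V : Subgroup G) [V.Normal] (x : G) : V :=
  ⟨x * (x : G ⧸ V).out⁻¹, by
    rw [← QuotientGroup.eq_one_iff, QuotientGroup.mk_mul, QuotientGroup.mk_inv,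
      QuotientGroup.out_eq', mul_inv_cancel]⟩

theorem vPart_mul (u : V) (x : G) : vPart V ((u : G) * x) = u * vPart V x := by
  have h : (((u : G) * x : G) : G ⧸ V) = (x : G ⧸ V) := by
    rw [QuotientGroup.mk_mul, (QuotientGroup.eq_one_iff _).2 u.2, one_mul]
  exact Subtype.ext (by simp only [vPart, h, Subgroup.coe_mul, mul_assoc])

theorem coeff_emb_mk [Fintype G] [DecidableEq (G ⧸ V)] (a : MonoidAlgebra k G) (q : G ⧸ V) :
    (emb (QuotientGroup.mk' V) a).coeff q =
      ∑ x ∈ Finset.univ.filter (fun x : G => (x : G ⧸ V) = q), a.coeff x := by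
  rw [coeff_emb_sum]
  exact Finset.sum_congr (Finset.ext fun x => by
    rw [Finset.mem_filter, Finset.mem_filter, QuotientGroup.mk'_apply]) fun _ _ => rfl

theorem sum_fibre_eq_zero [Fintype G] [DecidableEq (G ⧸ V)] {a : MonoidAlgebra k G}
    (ha : emb (QuotientGroup.mk' V) a = 0) (F : G ⧸ V → k) :
    ∀ q, ∑ x ∈ Finset.univ.filter (fun x : G => (x : G ⧸ V) = q), a.coeff x * F (x : G ⧸ V) = 0 := by
  intro q
  rw [Finset.sum_congr rfl fun x hx => by rw [(Finset.mem_filter.1 hx).2], ← Finset.sum_mul]
  have := coeff_emb_mk a q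
  rw [ha] at this
  rw [← this]
  simp

/-- The weighted image in `k[G ⧸ V]`. -/
noncomputable def wImage (l : Additive V →+ k) : MonoidAlgebra k G →ₗ[k] MonoidAlgebra k (G ⧸ V) :=
  haveI := Fintype.ofFinite G
  ∑ x : G, LinearMap.smulRight
    ({ toFun := fun a => a.coeff x
       map_add' := fun a b => by simp
       map_smul' := fun r a => by simp } : MonoidAlgebra k G →ₗ[k] k)
    (single (x : G ⧸ V) (l (Additive.ofMul (vPart V x))))

theorem wImage_apply [Fintype G] (l : Additive V →+ k) (a : MonoidAlgebra k G) :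
    wImage l a = ∑ x : G, single (x : G ⧸ V) (a.coeff x * l (Additive.ofMul (vPart V x))) := by
  unfold wImage
  rw [LinearMap.sum_apply, Finset.sum_congr (congrArg (@Finset.univ G) (Subsingleton.elim _ _))
    fun x _ => rfl]
  refine Finset.sum_congr rfl fun x _ => ?_
  rw [LinearMap.smulRight_apply, MonoidAlgebra.smul_single, smul_eq_mul]
  rfl

theorem coeff_wImage [Fintype G] [DecidableEq (G ⧸ V)] (l : Additive V →+ k)
    (a : MonoidAlgebra k G) (q : G ⧸ V) :
    (wImage l a).coeff q = ∑ x ∈ Finset.univ.filter (fun x : G => (x : G ⧸ V) = q),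
      a.coeff x * l (Additive.ofMul (vPart V x)) := by
  rw [wImage_apply, MonoidAlgebra.coeff_sum, Finset.sum_apply', Finset.sum_filter]
  exact Finset.sum_congr rfl fun x _ => by
    rw [MonoidAlgebra.coeff_single, Finsupp.single_apply]

theorem wImage_single_mul_vsubgroup (l : Additive V →+ k) (u : V) (a : MonoidAlgebra k G) :
    wImage l (single (u : G) 1 * a) =
      wImage l a + l (Additive.ofMul u) • emb (QuotientGroup.mk' V) a := by
  classical
  have := Fintype.ofFinite G
  refine H40.ext_coeff fun q => ?_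
  rw [coeff_wImage, MonoidAlgebra.coeff_add, Finsupp.add_apply, coeff_wImage,
    MonoidAlgebra.coeff_smul, Finsupp.smul_apply, coeff_emb_mk, smul_eq_mul, Finset.mul_sum]
  rw [← Finset.sum_add_distrib]
  refine Finset.sum_nbij' (fun x => (u : G)⁻¹ * x) (fun x => (u : G) * x) ?_ ?_ (fun x _ => by group)
    (fun x _ => by group) ?_
  · intro x hx
    simp only [Finset.mem_filter, Finset.mem_univ, true_and] at hx ⊢
    rw [QuotientGroup.mk_mul, QuotientGroup.mk_inv, (QuotientGroup.eq_one_iff _).2 u.2, inv_one,
      one_mul, hx]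
  · intro x hx
    simp only [Finset.mem_filter, Finset.mem_univ, true_and] at hx ⊢
    rw [QuotientGroup.mk_mul, (QuotientGroup.eq_one_iff _).2 u.2, one_mul, hx]
  · intro x _
    have hv : vPart V x = u * vPart V ((u : G)⁻¹ * x) := by
      conv_lhs => rw [show x = (u : G) * ((u : G)⁻¹ * x) by group, vPart_mul]
    have hc : (single (u : G) (1 : k) * a).coeff x = a.coeff ((u : G)⁻¹ * x) := by simp
    rw [hc, hv, ofMul_mul, map_add]
    ring

theorem wImage_mul_single (l : Additive V →+ k) {a : MonoidAlgebra k G}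
    (ha : emb (QuotientGroup.mk' V) a = 0) (y : G) (r : k) :
    wImage l (a * single y r) = wImage l a * single (y : G ⧸ V) r := by
  classical
  have := Fintype.ofFinite G
  set f : G → k := fun x =>
    l (Additive.ofMul (vPart V (x * y))) - l (Additive.ofMul (vPart V x))
  have hf : ∀ x x' : G, (x : G ⧸ V) = x' → f x = f x' := by
    intro x x' hxx
    obtain ⟨u, rfl⟩ : ∃ u : V, (u : G) * x' = x := ⟨⟨x * x'⁻¹, by
      rw [← QuotientGroup.eq_one_iff, QuotientGroup.mk_mul, QuotientGroup.mk_inv, hxx,
        mul_inv_cancel]⟩, by simp⟩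
    simp only [f, mul_assoc, vPart_mul, ofMul_mul, map_add]
    ring
  refine H40.ext_coeff fun q => ?_
  rw [MonoidAlgebra.coeff_mul_single_apply]
  set q' : G ⧸ V := q * (y : G ⧸ V)⁻¹
  rw [coeff_wImage, coeff_wImage, Finset.sum_mul]
  have hre : ∑ x ∈ Finset.univ.filter (fun x : G => (x : G ⧸ V) = q),
      (a * single y r).coeff x * l (Additive.ofMul (vPart V x)) =
      ∑ x ∈ Finset.univ.filter (fun x : G => (x : G ⧸ V) = q'),
        a.coeff x * r * l (Additive.ofMul (vPart V (x * y))) := by
    refine Finset.sum_nbij' (fun x => x * y⁻¹) (fun x => x * y) ?_ ?_ (fun x _ => by group)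
      (fun x _ => by group) ?_
    · intro x hx
      simp only [Finset.mem_filter, Finset.mem_univ, true_and] at hx ⊢
      rw [QuotientGroup.mk_mul, QuotientGroup.mk_inv, hx]
    · intro x hx
      simp only [Finset.mem_filter, Finset.mem_univ, true_and] at hx ⊢
      rw [QuotientGroup.mk_mul, hx, inv_mul_cancel_right]
    · intro x _
      rw [MonoidAlgebra.coeff_mul_single_apply, inv_mul_cancel_right]
  rw [hre, ← sub_eq_zero, ← Finset.sum_sub_distrib]
  have h0 := sum_fibre_eq_zero ha (fun q => f q.out) q'
  refine Eq.trans ?_ ((congrArg (fun z => r * z) h0).trans (mul_zero r))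
  rw [Finset.mul_sum]
  refine Finset.sum_congr rfl fun x _ => ?_
  rw [hf (x : G ⧸ V).out x (QuotientGroup.out_eq' _)]
  simp only [f]
  ring

theorem wImage_mul (l : Additive V →+ k) {a : MonoidAlgebra k G}
    (ha : emb (QuotientGroup.mk' V) a = 0) (b : MonoidAlgebra k G) :
    wImage l (a * b) = wImage l a * emb (QuotientGroup.mk' V) b := by
  induction b using MonoidAlgebra.induction_linear with
  | zero => simp
  | add x y hx hy => simp [mul_add, hx, hy]
  | single y r => simp [wImage_mul_single l ha, emb]

/-- The action of an element on functions on `V`. -/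
noncomputable def actFun (l : Additive V →+ k) (t : G) : Additive V →+ k :=
  l.comp (MonoidHom.toAdditive (MulAut.conjNormal t : MulAut V).toMonoidHom)

theorem actFun_apply (l : Additive V →+ k) (t : G) (u : V) :
    actFun l t (Additive.ofMul u) = l (Additive.ofMul (MulAut.conjNormal t u)) := rfl

theorem actFun_of_centralizes (l : Additive V →+ k) {t : G}
    (ht : t ∈ Subgroup.centralizer (V : Set G)) : actFun l t = l := by
  refine AddMonoidHom.ext fun u => ?_
  obtain ⟨u, rfl⟩ := Additive.ofMul.surjective u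
  rw [actFun_apply]
  congr 2
  refine Subtype.ext ?_
  rw [MulAut.conjNormal_apply, ← Subgroup.mem_centralizer_iff.1 ht u u.2, mul_inv_cancel_right]

theorem wImage_single_mul (l : Additive V →+ k) {a : MonoidAlgebra k G}
    (ha : emb (QuotientGroup.mk' V) a = 0) (t : G) :
    wImage l (single t 1 * a) = single (t : G ⧸ V) 1 * wImage (actFun l t) a := by
  classical
  have := Fintype.ofFinite G
  set g : G → k := fun x =>
    l (Additive.ofMul (vPart V (t * x))) - actFun l t (Additive.ofMul (vPart V x))
  have hg : ∀ x x' : G, (x : G ⧸ V) = x' → g x = g x' := by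
    intro x x' hxx
    obtain ⟨u, rfl⟩ : ∃ u : V, (u : G) * x' = x := ⟨⟨x * x'⁻¹, by
      rw [← QuotientGroup.eq_one_iff, QuotientGroup.mk_mul, QuotientGroup.mk_inv, hxx,
        mul_inv_cancel]⟩, by simp⟩
    have e : t * ((u : G) * x') = ((MulAut.conjNormal t u : V) : G) * (t * x') := by
      rw [MulAut.conjNormal_apply]; group
    simp only [g, e, vPart_mul, actFun_apply, map_mul, ofMul_mul, map_add]
    ring
  refine H40.ext_coeff fun q => ?_
  rw [MonoidAlgebra.coeff_single_mul_apply, one_mul]
  set q' : G ⧸ V := (t : G ⧸ V)⁻¹ * q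
  rw [coeff_wImage, coeff_wImage]
  have hre : ∑ x ∈ Finset.univ.filter (fun x : G => (x : G ⧸ V) = q),
      (single t (1 : k) * a).coeff x * l (Additive.ofMul (vPart V x)) =
      ∑ x ∈ Finset.univ.filter (fun x : G => (x : G ⧸ V) = q'),
        a.coeff x * l (Additive.ofMul (vPart V (t * x))) := by
    refine Finset.sum_nbij' (fun x => t⁻¹ * x) (fun x => t * x) ?_ ?_ (fun x _ => by group)
      (fun x _ => by group) ?_
    · intro x hx
      simp only [Finset.mem_filter, Finset.mem_univ, true_and] at hx ⊢
      rw [QuotientGroup.mk_mul, QuotientGroup.mk_inv, hx]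
    · intro x hx
      simp only [Finset.mem_filter, Finset.mem_univ, true_and] at hx ⊢
      rw [QuotientGroup.mk_mul, hx, mul_inv_cancel_left]
    · intro x _
      rw [MonoidAlgebra.coeff_single_mul_apply, one_mul, mul_inv_cancel_left]
  rw [hre, ← sub_eq_zero, ← Finset.sum_sub_distrib]
  have h0 := sum_fibre_eq_zero ha (fun q => g q.out) q'
  refine Eq.trans ?_ h0
  refine Finset.sum_congr rfl fun x _ => ?_
  rw [hg (x : G ⧸ V).out x (QuotientGroup.out_eq' _)]
  simp only [g]
  ring

end Vmap

/-! ### Sums over elementary abelian groups -/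

section Sums

variable {p : ℕ} [hp : Fact p.Prime] [CharP k p]

/-- Summing over a group coset by coset. -/
theorem sum_cosets {A : Type*} [CommGroup A] [Fintype A] (K : Subgroup A) [Fintype K]
    [Fintype (A ⧸ K)] (F : A → k) :
    ∑ s : A, F s = ∑ q : A ⧸ K, ∑ w : K, F (q.out * (w : A)) := by
  classical
  rw [← Fintype.sum_prod_type (fun x : (A ⧸ K) × K => F (x.1.out * (x.2 : A)))]
  refine (Fintype.sum_bijective (fun x : (A ⧸ K) × K => x.1.out * (x.2 : A)) ⟨?_, ?_⟩ _ _
    fun x => rfl).symm
  · rintro ⟨q, w⟩ ⟨q', w'⟩ h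
    have hq : q = q' := by
      have h' := congrArg (fun z : A => (z : A ⧸ K)) h
      simpa [(QuotientGroup.eq_one_iff _).2 w.2, (QuotientGroup.eq_one_iff _).2 w'.2] using h'
    subst hq
    exact Prod.ext rfl (Subtype.ext (mul_left_cancel h))
  · intro s
    exact ⟨((s : A ⧸ K), ⟨(s : A ⧸ K).out⁻¹ * s, by
      rw [← QuotientGroup.eq_one_iff, QuotientGroup.mk_mul, QuotientGroup.mk_inv,
        QuotientGroup.out_eq', inv_mul_cancel]⟩), by simp⟩

/-- An additive function sums to zero over an elementary abelian group of order above two. -/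
theorem sum_addHom_eq_zero {W : Type*} [CommGroup W] [Fintype W] (hW : ∀ w : W, w ^ p = 1)
    (h1 : Fintype.card W ≠ 1) (h2 : Fintype.card W ≠ 2) (l : Additive W →+ k) :
    ∑ w : W, l (Additive.ofMul w) = 0 := by
  classical
  obtain ⟨n, hn⟩ : ∃ n, Nat.card W = p ^ n :=
    IsPGroup.iff_card.1 fun w => ⟨1, by rw [pow_one, hW]⟩
  rw [Nat.card_eq_fintype_card] at hn
  set S := ∑ w : W, l (Additive.ofMul w)
  rcases hp.out.eq_two_or_odd' with rfl | hodd
  · obtain ⟨m, rfl⟩ : ∃ m, n = m + 2 := by
      refine ⟨n - 2, ?_⟩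
      rcases n with _ | _ | n
      · simp at hn; exact absurd hn h1
      · simp at hn; exact absurd hn h2
      · rfl
    obtain ⟨a, ha⟩ : ∃ a : W, a ≠ 1 := Fintype.exists_ne_of_one_lt_card (by
      rw [hn]; exact Nat.one_lt_two_pow (by omega)) 1
    set A := Subgroup.zpowers a
    have hA : Nat.card A = 2 := by
      rw [Nat.card_zpowers, orderOf_eq_prime (hW a) ha]
    have hq : Nat.card (W ⧸ A) = 2 ^ (m + 1) := by
      have h := Subgroup.card_eq_card_quotient_mul_card_subgroup A
      rw [Nat.card_eq_fintype_card, hn, hA] at h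
      rw [show m + 2 = (m + 1) + 1 by omega, pow_succ] at h
      omega
    have hS : S = ∑ q : W ⧸ A, ∑ w : A, (l (Additive.ofMul q.out) + l (Additive.ofMul (w : W))) := by
      rw [show S = ∑ w : W, l (Additive.ofMul w) from rfl, sum_cosets A]
      simp only [ofMul_mul, map_add]
    rw [hS]
    simp only [Finset.sum_add_distrib, Finset.sum_const, Finset.card_univ, ← Nat.card_eq_fintype_card,
      hA, hq]
    have h20 : (2 : k) = 0 := by
      have := CharP.cast_eq_zero k 2
      simpa using this
    simp [nsmul_eq_mul, h20]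
  · have h : S = -S := by
      conv_lhs => rw [show S = ∑ w : W, l (Additive.ofMul w⁻¹) from
        (Fintype.sum_equiv (Equiv.inv W) _ _ fun w => rfl).symm]
      simp [S]
    have h2' : (2 : k) ≠ 0 := by
      intro h0
      have : ((2 : ℕ) : k) = 0 := by exact_mod_cast h0
      rw [CharP.cast_eq_zero_iff k p, Nat.prime_dvd_prime_iff_eq hp.out Nat.prime_two] at this
      subst this
      exact absurd hodd (by decide)
    have h' : (2 : k) * S = 0 := by rw [two_mul]; nth_rewrite 2 [h]; rw [add_neg_cancel]
    exact (mul_eq_zero.1 h').resolve_left h2'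

/-- Weighted sums over a coset vanish for weights invariant under a subgroup of order above two. -/
theorem sum_invariant_mul_eq_zero {A : Type*} [CommGroup A] [Fintype A] (hA : ∀ a : A, a ^ p = 1)
    (W : Subgroup A) (h1 : Nat.card W ≠ 1) (h2 : Nat.card W ≠ 2) (f : A → k)
    (hf : ∀ w ∈ W, ∀ s, f (w * s) = f s) (l : Additive A →+ k) (c : k) :
    ∑ s : A, f s * (l (Additive.ofMul s) + c) = 0 := by
  classical
  have hcard : (Nat.card W : k) = 0 := by
    obtain ⟨n, hn⟩ : ∃ n, Nat.card W = p ^ n :=
      IsPGroup.iff_card.1 fun w => ⟨1, by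
        rw [pow_one]; exact Subtype.ext (by simpa using hA w)⟩
    rcases n with _ | n
    · rw [pow_zero] at hn; exact absurd hn h1
    · rw [hn, Nat.cast_pow, CharP.cast_eq_zero, zero_pow (Nat.succ_ne_zero n)]
  have hsum : ∑ w : W, l (Additive.ofMul (w : A)) = 0 :=
    sum_addHom_eq_zero (p := p) (W := W) (fun w => Subtype.ext (by simpa using hA w))
      (by rwa [← Nat.card_eq_fintype_card]) (by rwa [← Nat.card_eq_fintype_card])
      (l.comp (MonoidHom.toAdditive W.subtype))
  calc ∑ s : A, f s * (l (Additive.ofMul s) + c)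
      = ∑ q : A ⧸ W, ∑ w : W,
          f q.out * (l (Additive.ofMul (w : A)) + (l (Additive.ofMul q.out) + c)) := by
        rw [sum_cosets W]
        refine Finset.sum_congr rfl fun q _ => Finset.sum_congr rfl fun w _ => ?_
        rw [mul_comm q.out (w : A), hf _ w.2, ofMul_mul, map_add]
        ring
    _ = 0 := Finset.sum_eq_zero fun q _ => by
        rw [← Finset.mul_sum, Finset.sum_add_distrib, hsum, zero_add, Finset.sum_const,
          Finset.card_univ, ← Nat.card_eq_fintype_card, nsmul_eq_mul, hcard, zero_mul, mul_zero]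

end Sums

end Cfsg.Agent.H31.NormalDefectDegrees
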