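import Cfsg.Agent.H22.PairBridge
import Cfsg.Agent.H22.PairImage
import Mathlib

/-!
# Group algebras and quotient maps

Block elements pass to quotients by `p`-subgroups centralised by their support, and for a normal
subgroup `V` an additive function on `V` gives a derivation-like map to the algebra of `G ⧸ V`.
-/

set_option autoImplicit false
set_option linter.unusedSectionVars false

namespace Cfsg.Agent.H31.NormalDefectDegrees

open Cfsg.Agent.H22 (cj cut emb Supp Inv IsCent IsBlockEl)
open MonoidAlgebra (single)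

section Ring

variable {k : Type*} [CommRing k] {A : Type*} [Ring A] [Algebra k A]

/-- Combinations of central nilpotent elements of a subalgebra are nilpotent. -/
theorem isNilpotent_sum_mul {ι : Type*} (S : Subalgebra k A) (n b : ι → A) (s : Finset ι)
    (hn : ∀ i ∈ s, n i ∈ S) (hb : ∀ i ∈ s, b i ∈ S) (hc : ∀ i ∈ s, ∀ a ∈ S, Commute (n i) a)
    (hnil : ∀ i ∈ s, IsNilpotent (n i)) : IsNilpotent (∑ i ∈ s, n i * b i) := by
  classical
  induction s using Finset.induction_on with
  | empty => simp
  | insert j s hj ih =>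
    simp only [Finset.mem_insert, forall_eq_or_imp] at hn hb hc hnil
    obtain ⟨m, hm⟩ := ih hn.2 hb.2 hc.2 hnil.2
    have hR : ∑ i ∈ s, n i * b i ∈ S :=
      S.sum_mem fun i hi => S.mul_mem (hn.2 i hi) (hb.2 i hi)
    set R := ∑ i ∈ s, n i * b i
    rw [Finset.sum_insert hj]
    set u := n j * b j
    have hkey : ∀ e : ℕ, ∃ c ∈ S, (u + R) ^ e = R ^ e + n j * c := by
      intro e
      induction e with
      | zero => exact ⟨0, S.zero_mem, by simp⟩
      | succ e ihe =>
        obtain ⟨c, hcS, hce⟩ := ihe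
        refine ⟨b j * (R ^ e + n j * c) + R * c, S.add_mem (S.mul_mem hb.1 (S.add_mem (S.pow_mem hR e)
          (S.mul_mem hn.1 hcS))) (S.mul_mem hR hcS), ?_⟩
        rw [pow_succ', hce, add_mul, pow_succ', mul_add R, ← mul_assoc R (n j) c,
          ← (hc.1 R hR).eq, mul_assoc (n j) R c, mul_add (n j), ← mul_assoc (n j) (b j)]
        abel
    obtain ⟨c, hcS, hce⟩ := hkey m
    rw [hm, zero_add] at hce
    exact IsNilpotent.of_pow (m := m) (hce ▸ (hc.1 c hcS).isNilpotent_mul_right hnil.1)

/-- A set stable under being decomposed along commuting nilpotent elements is zero. -/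
theorem eq_zero_of_decomp {ι : Type*} (n : ι → A) (hcomm : ∀ i j, Commute (n i) (n j))
    (hnil : ∀ i, IsNilpotent (n i)) : ∀ (s : Finset ι) (X : Set A),
      (∀ x ∈ X, ∃ y : ι → A, (∀ i, y i ∈ X) ∧ x = ∑ i ∈ s, n i * y i) → ∀ x ∈ X, x = 0 := by
  classical
  intro s
  induction s using Finset.induction_on with
  | empty =>
    intro X hX x hx
    obtain ⟨y, -, h⟩ := hX x hx
    simpa using h
  | insert j s hj ih =>
    intro X hX
    have key : ∀ d m : ℕ, n j ^ (m + d) = 0 → ∀ x ∈ X, n j ^ m * x = 0 := by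
      intro d
      induction d with
      | zero =>
        intro m hm x _
        rw [add_zero] at hm
        rw [hm, zero_mul]
      | succ d ihd =>
        intro m hm x hx
        have h1 := ihd (m + 1) (by rwa [show m + 1 + d = m + (d + 1) by omega])
        refine ih {z | ∃ x ∈ X, n j ^ m * x = z} ?_ _ ⟨x, hx, rfl⟩
        rintro _ ⟨x, hx, rfl⟩
        obtain ⟨y, hy, hxy⟩ := hX x hx
        refine ⟨fun i => n j ^ m * y i, fun i => ⟨y i, hy i, rfl⟩, ?_⟩
        rw [hxy, Finset.sum_insert hj, mul_add, ← mul_assoc, ← pow_succ, h1 _ (hy j), zero_add,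
          Finset.mul_sum]
        exact Finset.sum_congr rfl fun i _ => by
          rw [← mul_assoc, ((hcomm j i).pow_left m).eq, mul_assoc]
    obtain ⟨N, hN⟩ := hnil j
    intro x hx
    simpa using key N 0 (by simpa using hN) x hx

end Ring

variable {k : Type*} [Field k] {G : Type*} [Group G] [Finite G]

variable (k) in
/-- The group algebra of a subgroup inside that of the group. -/
def suppAlg (C : Subgroup G) : Subalgebra k (MonoidAlgebra k G) where
  carrier := {a | Supp C a}
  mul_mem' := fun ha hb => ha.mul hb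
  add_mem' := fun ha hb => ha.add hb
  algebraMap_mem' r := by
    show Supp C _
    rw [Algebra.algebraMap_eq_smul_one]
    exact (H22.supp_one C).smul r

theorem mem_suppAlg {C : Subgroup G} {a : MonoidAlgebra k G} : a ∈ suppAlg k C ↔ Supp C a :=
  Iff.rfl

theorem supp_single {C : Subgroup G} {x : G} (hx : x ∈ C) (r : k) : Supp C (single x r) := by
  classical
  intro y hy
  rw [MonoidAlgebra.coeff_single, Finsupp.single_apply] at hy
  split_ifs at hy with h
  · exact h ▸ hx
  · exact absurd rfl hy

theorem coeff_emb_sum [Fintype G] {H : Type*} [Group H] [Finite H] [DecidableEq H] (f : G →* H)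
    (a : MonoidAlgebra k G) (q : H) :
    (emb f a).coeff q = ∑ x ∈ Finset.univ.filter (fun x => f x = q), a.coeff x := by
  rw [H22.coeff_emb, Finsupp.mapDomain, Finsupp.sum_fintype _ _ (by simp), Finsupp.finsetSum_apply,
    Finset.sum_filter]
  simp [Finsupp.single_apply]

theorem supp_emb_map {H : Type*} [Group H] [Finite H] (f : G →* H) {C : Subgroup G}
    {a : MonoidAlgebra k G} (ha : Supp C a) : Supp (C.map f) (emb f a) := by
  classical
  have := Fintype.ofFinite G
  intro q hq
  rw [coeff_emb_sum] at hq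
  obtain ⟨x, hx, hx0⟩ := Finset.exists_ne_zero_of_sum_ne_zero hq
  exact ⟨x, ha x hx0, (Finset.mem_filter.1 hx).2⟩

theorem cj_eq_single (g : G) (a : MonoidAlgebra k G) :
    cj g a = single g 1 * a * single g⁻¹ 1 := by
  refine H40.ext_coeff fun x => ?_
  simp [mul_assoc]

theorem single_mul_eq_cj (g : G) (a : MonoidAlgebra k G) :
    single g 1 * a = cj g a * single g 1 := by
  rw [cj_eq_single, mul_assoc _ (single g⁻¹ 1), MonoidAlgebra.single_mul_single, inv_mul_cancel,
    mul_one, ← MonoidAlgebra.one_def, mul_one]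

theorem cj_emb_map {H : Type*} [Group H] [Finite H] (f : G →* H) (g : G) (a : MonoidAlgebra k G) :
    cj (f g) (emb f a) = emb f (cj g a) := by
  rw [cj_eq_single, cj_eq_single, map_mul, map_mul, ← map_inv]
  congr
  all_goals simp [emb]

theorem isCent_emb_map {H : Type*} [Group H] [Finite H] (f : G →* H) {C : Subgroup G}
    {a : MonoidAlgebra k G} (ha : IsCent C a) : IsCent (C.map f) (emb f a) where
  supp := supp_emb_map f ha.supp
  inv := by
    rintro _ ⟨g, hg, rfl⟩
    rw [cj_emb_map, ha.inv g hg]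

section Lift

variable {p : ℕ} [hp : Fact p.Prime] [CharP k p]

theorem isNilpotent_single_sub_one {z : G} (hz : ∃ j : ℕ, orderOf z = p ^ j) :
    IsNilpotent (single z (1 : k) - 1 : MonoidAlgebra k G) := by
  obtain ⟨j, hj⟩ := hz
  have : CharP (MonoidAlgebra k G) p :=
    charP_of_injective_ringHom (algebraMap k (MonoidAlgebra k G)).injective p
  refine ⟨p ^ j, ?_⟩
  rw [sub_pow_char_pow_of_commute _ _ (Commute.one_right _), MonoidAlgebra.single_pow, one_pow,
    one_pow, ← hj, pow_orderOf_eq_one, MonoidAlgebra.one_def, sub_self]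

variable {H : Type*} [Group H] [Finite H] {f : G →* H} {C : Subgroup G}

/-- An element of `k[C]` killed by `f` is a combination of the `z - 1`, `z` in `C` and the
kernel. -/
theorem exists_decomp_ker {a : MonoidAlgebra k G} (ha : Supp C a) (hfa : emb f a = 0) :
    ∃ b : G → MonoidAlgebra k G, (∀ z, Supp C (b z)) ∧ ∀ [Fintype G] [DecidablePred (· ∈ C ⊓ f.ker)],
      a = ∑ z ∈ Finset.univ.filter (· ∈ C ⊓ f.ker), (single z 1 - 1) * b z := by
  classical
  have := Fintype.ofFinite G
  let r : H → G := fun q => if h : ∃ c ∈ C, f c = q then h.choose else 1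
  have hr : ∀ x ∈ C, r (f x) ∈ C ∧ f (r (f x)) = f x := fun x hx => by
    have h : ∃ c ∈ C, f c = f x := ⟨x, hx, rfl⟩
    simp only [r, dif_pos h]
    exact h.choose_spec
  let z : G → G := fun x => if x ∈ C then x * (r (f x))⁻¹ else 1
  have hz : ∀ x, z x ∈ C ⊓ f.ker := fun x => by
    by_cases hx : x ∈ C
    · simp only [z, if_pos hx]
      exact Subgroup.mem_inf.2 ⟨mul_mem hx (inv_mem (hr x hx).1), MonoidHom.mem_ker.2 (by rw [map_mul, map_inv, (hr x hx).2, mul_inv_cancel])⟩
    · simp only [z, if_neg hx]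
      exact one_mem _
  refine ⟨fun w => ∑ x ∈ Finset.univ.filter (fun x => z x = w ∧ x ∈ C), single (r (f x)) (a.coeff x),
    fun w => Supp.sum _ fun x hx => supp_single (hr x (Finset.mem_filter.1 hx).2.2).1 _, ?_⟩
  intro _ _
  have := Fintype.ofFinite H
  have h0 : ∑ x : G, single (r (f x)) (a.coeff x) = 0 := by
    rw [← Finset.sum_fiberwise_of_maps_to (t := (Finset.univ : Finset H)) (g := fun x => f x)
      (fun x _ => Finset.mem_univ _)]
    refine Finset.sum_eq_zero fun q _ => ?_
    rw [Finset.sum_congr rfl fun x hx => by rw [(Finset.mem_filter.1 hx).2]]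
    refine H40.ext_coeff fun y => ?_
    rw [MonoidAlgebra.coeff_sum, Finset.sum_apply']
    simp only [MonoidAlgebra.coeff_single, Finsupp.single_apply]
    by_cases hy : r q = y
    · simp only [if_pos hy]
      rw [← coeff_emb_sum f a q, hfa]
      simp
    · simp [if_neg hy]
  calc a = ∑ x : G, (single x (a.coeff x) - single (r (f x)) (a.coeff x)) := by
        rw [Finset.sum_sub_distrib, h0, sub_zero, ← H40.eq_sum_single]
    _ = ∑ x ∈ Finset.univ.filter (· ∈ C), (single (z x) 1 - 1) * single (r (f x)) (a.coeff x) := by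
        rw [Finset.sum_filter]
        refine Finset.sum_congr rfl fun x _ => ?_
        by_cases hx : x ∈ C
        · rw [if_pos hx, sub_mul, one_mul, MonoidAlgebra.single_mul_single, one_mul]
          simp [z, hx]
        · rw [if_neg hx]
          have : a.coeff x = 0 := ha.coeff_eq_zero hx
          simp [this]
    _ = _ := by
        rw [← Finset.sum_fiberwise_of_maps_to (g := z)
          (t := Finset.univ.filter (· ∈ C ⊓ f.ker))
          (fun x _ => Finset.mem_filter.2 ⟨Finset.mem_univ _, hz x⟩)]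
        refine Finset.sum_congr rfl fun w _ => ?_
        rw [Finset.mul_sum, Finset.filter_filter]
        refine Finset.sum_congr (by ext x; simp [and_comm]) fun x hx => ?_
        rw [(Finset.mem_filter.1 hx).2.1]

theorem commute_single_sub_one {z : G} (hz : ∀ c ∈ C, Commute z c) {a : MonoidAlgebra k G}
    (ha : Supp C a) : Commute (single z 1 - 1) a := by
  classical
  have := Fintype.ofFinite G
  refine Commute.sub_left ?_ (Commute.one_left a)
  rw [H40.eq_sum_single a]
  refine Commute.sum_right _ _ _ fun x _ => ?_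
  by_cases hx : x ∈ C
  · show _ = _
    rw [MonoidAlgebra.single_mul_single, MonoidAlgebra.single_mul_single, (hz x hx).eq, mul_comm (1 : k)]
  · rw [ha.coeff_eq_zero hx]
    simp

/-- A block element passes to the image under a map with central `p`-kernel on its support. -/
theorem isBlockEl_emb {ε : MonoidAlgebra k G} (hε : IsBlockEl C ε)
    (hZ : ∀ z ∈ C ⊓ f.ker, ∀ c ∈ C, Commute z c) (hZp : IsPGroup p ↥(C ⊓ f.ker)) :
    IsBlockEl (C.map f) (emb f ε) := by
  classical
  have := Fintype.ofFinite G
  set Z := Finset.univ.filter (· ∈ C ⊓ f.ker)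
  set n : G → MonoidAlgebra k G := fun z => if z ∈ C ⊓ f.ker then single z 1 - 1 else 0
  have hn : ∀ z, n z ∈ suppAlg k C := fun z => by
    by_cases hz : z ∈ C ⊓ f.ker
    · simp only [n, if_pos hz]
      exact (supp_single hz.1 1).sub (H22.supp_one C)
    · simp only [n, if_neg hz]
      exact Subalgebra.zero_mem _
  have hcen : ∀ z, ∀ a ∈ suppAlg k C, Commute (n z) a := fun z a ha => by
    by_cases hz : z ∈ C ⊓ f.ker
    · simp only [n, if_pos hz]
      exact commute_single_sub_one (hZ z hz) ha
    · simp only [n, if_neg hz]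
      exact Commute.zero_left a
  have hnil : ∀ z, IsNilpotent (n z) := fun z => by
    by_cases hz : z ∈ C ⊓ f.ker
    · simp only [n, if_pos hz]
      obtain ⟨j, hj⟩ := IsPGroup.iff_orderOf.1 hZp ⟨z, hz⟩
      exact isNilpotent_single_sub_one ⟨j, by rwa [← Subgroup.orderOf_coe] at hj⟩
    · simp only [n, if_neg hz]
      exact IsNilpotent.zero
  have hdec : ∀ a ∈ suppAlg k C, emb f a = 0 →
      ∃ b : G → MonoidAlgebra k G, (∀ z, b z ∈ suppAlg k C) ∧ a = ∑ z ∈ Z, n z * b z := by
    intro a ha hfa
    obtain ⟨b, hb, hab⟩ := exists_decomp_ker (f := f) ha hfa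
    refine ⟨b, hb, hab.trans (Finset.sum_congr rfl fun z hz => ?_)⟩
    simp only [n, if_pos (Finset.mem_filter.1 hz).2]
  have hkernil : ∀ a ∈ suppAlg k C, emb f a = 0 → IsNilpotent a := fun a ha hfa => by
    obtain ⟨b, hb, rfl⟩ := hdec a ha hfa
    exact isNilpotent_sum_mul (suppAlg k C) n b Z (fun z _ => hn z) (fun z _ => hb z)
      (fun z _ => hcen z) fun z _ => hnil z
  refine ⟨isCent_emb_map f hε.cent, by rw [← map_mul, hε.idem], fun h0 => hε.ne_zero
    (H22.isIdempotentElem_eq_zero_of_isNilpotent hε.idem (hkernil _ hε.cent.supp h0)), ?_⟩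
  intro w hw hw2
  let θ : suppAlg k C →ₐ[k] MonoidAlgebra k H := (emb f).comp (suppAlg k C).val
  have hrange : w ∈ θ.toRingHom.range := by
    have := Fintype.ofFinite H
    have hwS : w = ∑ q : H, single q (w.coeff q) := H40.eq_sum_single w
    rw [hwS]
    refine Subring.sum_mem _ fun q _ => ?_
    by_cases hq : q ∈ C.map f
    · obtain ⟨c, hc, rfl⟩ := hq
      exact ⟨⟨single c (w.coeff (f c)), supp_single hc _⟩, by simp [θ, emb]⟩
    · rw [hw.supp.coeff_eq_zero hq]
      simp
  obtain ⟨⟨e0, he0⟩, hidem, hew⟩ := exists_isIdempotentElem_eq_of_ker_isNilpotent θ.toRingHom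
    (fun x hx => by
      obtain ⟨N, hN⟩ := hkernil x.1 x.2 hx
      exact ⟨N, Subtype.ext (by simpa using hN)⟩) w hrange hw2
  have hee : e0 * e0 = e0 := congrArg Subtype.val hidem
  have hew' : emb f e0 = w := hew
  -- the lift is central
  have hzero : ∀ u v : MonoidAlgebra k G, u ∈ suppAlg k C → v ∈ suppAlg k C → u * u = u →
      v * v = v → emb f u * emb f v = 0 → (∀ a ∈ suppAlg k C, Commute (emb f a) (emb f u)) →
      ∀ a ∈ suppAlg k C, u * a * v = 0 := by
    intro u v hu hv huu hvv huv hcomm a ha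
    refine eq_zero_of_decomp n (fun i j => hcen i _ (hn j)) hnil Z
      {x | ∃ a ∈ suppAlg k C, u * a * v = x} ?_ _ ⟨a, ha, rfl⟩
    rintro _ ⟨a, ha, rfl⟩
    obtain ⟨b, hb, hab⟩ := hdec (u * a * v) (Subalgebra.mul_mem _ (Subalgebra.mul_mem _ hu ha) hv) (by
      rw [map_mul, map_mul, ← (hcomm a ha).eq, mul_assoc, huv, mul_zero])
    refine ⟨fun z => u * b z * v, fun z => ⟨b z, hb z, rfl⟩, ?_⟩
    calc u * a * v = u * (u * a * v) * v := by
          simp only [← mul_assoc, huu]; rw [mul_assoc _ v v, hvv]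
      _ = _ := by
          rw [hab, Finset.mul_sum, Finset.sum_mul]
          exact Finset.sum_congr rfl fun z _ => by
            rw [← mul_assoc u (n z), (hcen z u hu).eq.symm]; simp only [mul_assoc]
  have hwcomm : ∀ a ∈ suppAlg k C, Commute (emb f a) (emb f e0) := fun a ha => by
    rw [hew']
    exact (hw.comm (supp_emb_map f ha)).symm
  have hwcomm' : ∀ a ∈ suppAlg k C, Commute (emb f a) (emb f (1 - e0)) := fun a ha => by
    rw [map_sub, map_one]
    exact (Commute.one_right _).sub_right (hwcomm a ha)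
  have h1e : (1 - e0) * (1 - e0) = 1 - e0 := (IsIdempotentElem.one_sub hee).eq
  have h1S : 1 - e0 ∈ suppAlg k C := Subalgebra.sub_mem _ (Subalgebra.one_mem _) he0
  have hcomm0 : ∀ a ∈ suppAlg k C, Commute e0 a := fun a ha => by
    have e1 := hzero e0 (1 - e0) he0 h1S hee h1e
      (by rw [← map_mul, mul_sub, mul_one, hee, sub_self, map_zero]) hwcomm a ha
    have e2 := hzero (1 - e0) e0 h1S he0 h1e hee
      (by rw [← map_mul, sub_mul, one_mul, hee, sub_self, map_zero]) hwcomm' a ha
    rw [mul_sub, mul_one, sub_eq_zero] at e1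
    rw [sub_mul, one_mul, sub_mul, sub_eq_zero] at e2
    exact e1.trans e2.symm
  have hce : IsCent C e0 := ⟨he0, fun c hc => by
    rw [cj_eq_single, ← (hcomm0 _ (supp_single hc 1)).eq, mul_assoc,
      MonoidAlgebra.single_mul_single, mul_inv_cancel, mul_one, ← MonoidAlgebra.one_def, mul_one]⟩
  rcases hε.prim e0 hce hee with h | h
  · left; rw [← hew', ← map_mul, h, map_zero]
  · right; rw [← hew', ← map_mul, h]

end Lift

end Cfsg.Agent.H31.NormalDefectDegrees
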