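import Cfsg.Agent.H31.NormalDefectDegrees.Derivation

/-!
# A block element with centrally generated kernel has trivially acting stabiliser
-/

set_option autoImplicit false
set_option linter.unusedSectionVars false
set_option maxHeartbeats 1000000

namespace Cfsg.Agent.H31.NormalDefectDegrees

open Cfsg.Agent.H22 (cj cut emb Supp Inv IsCent IsBlockEl Split)
open MonoidAlgebra (single)

variable {k : Type*} [Field k] {G : Type*} [Group G] [Finite G] {p : ℕ} [hp : Fact p.Prime]
  [CharP k p] {V T : Subgroup G} [V.Normal]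

theorem exists_dual_ne {B : Type*} [AddCommGroup B] [Module (ZMod p) B] {d : B} (h : d ≠ 0) :
    ∃ g : B →+ ZMod p, g d ≠ 0 := by
  by_contra! hh
  exact h ((Module.forall_dual_apply_eq_zero_iff (ZMod p) d).1 fun φ => hh φ.toAddMonoidHom)

/-- Additive functions separate an elementary abelian group. -/
theorem exists_addHom_ne_zero {A : Type*} [Group A] (hab : ∀ u w : A, u * w = w * u)
    (hexp : ∀ u : A, u ^ p = 1) {d : A} (hd : d ≠ 1) :
    ∃ l : Additive A →+ k, l (Additive.ofMul d) ≠ 0 := by
  let _ : CommGroup A := { (inferInstance : Group A) with mul_comm := hab }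
  let _ : Module (ZMod p) (Additive A) := AddCommGroup.zmodModule fun x => by
    obtain ⟨x, rfl⟩ := Additive.ofMul.surjective x
    rw [← ofMul_pow, hexp]
    rfl
  have hd' : Additive.ofMul d ≠ 0 := hd
  obtain ⟨g, hg⟩ := exists_dual_ne (p := p) hd'
  exact ⟨(ZMod.castHom (dvd_refl p) k).toAddMonoidHom.comp g,
    fun h => hg ((ZMod.castHom (dvd_refl p) k).injective (h.trans (map_zero _).symm))⟩

/-- Outside the centraliser the conjugates under `V` fill a subgroup of order above two. -/
theorem card_range_comm (hVab : ∀ u ∈ V, ∀ w ∈ V, u * w = w * u) (hVp : ∀ u ∈ V, u ^ p = 1)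
    (hidx : ¬ p ∣ (T ⊓ Subgroup.centralizer (V : Set G)).relIndex T) {t : G} (ht : t ∈ T)
    (htV : t ∉ Subgroup.centralizer (V : Set G)) :
    ∃ δ : V →* V, (∀ u : V, (δ u : G) = (u : G) * t * (u : G)⁻¹ * t⁻¹) ∧
      Nat.card δ.range ≠ 1 ∧ Nat.card δ.range ≠ 2 := by
  have hmem : ∀ u : V, (u : G) * t * (u : G)⁻¹ * t⁻¹ ∈ V := fun u => by
    have := mul_mem u.2 ((inferInstance : V.Normal).conj_mem _ (inv_mem u.2) t)
    simpa [mul_assoc] using this
  let δ : V →* V :=
    { toFun := fun u => ⟨_, hmem u⟩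
      map_one' := Subtype.ext (by simp)
      map_mul' := fun u w => Subtype.ext (by
        show (u : G) * w * t * ((u : G) * w)⁻¹ * t⁻¹ =
          (u : G) * t * (u : G)⁻¹ * t⁻¹ * ((w : G) * t * (w : G)⁻¹ * t⁻¹)
        rw [hVab _ (hmem u) _ (hmem w)]
        have h := hVab _ (hmem w) _ u.2
        calc (u : G) * w * t * ((u : G) * w)⁻¹ * t⁻¹
            = (u : G) * ((w : G) * t * (w : G)⁻¹ * t⁻¹) * (t * (u : G)⁻¹ * t⁻¹) := by group
          _ = _ := by rw [← h]; group) }
  refine ⟨δ, fun u => rfl, ?_, ?_⟩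
  · intro h1
    refine htV (Subgroup.mem_centralizer_iff.2 fun u hu => ?_)
    have h : δ ⟨u, hu⟩ = 1 := by
      have := Subgroup.card_eq_one.1 h1
      have hm : δ ⟨u, hu⟩ ∈ δ.range := ⟨_, rfl⟩
      rwa [this, Subgroup.mem_bot] at hm
    have h' : u * t * u⁻¹ * t⁻¹ = 1 := congrArg Subtype.val h
    calc u * t = (u * t * u⁻¹ * t⁻¹) * (t * u) := by group
      _ = t * u := by rw [h', one_mul]
  · intro h2
    have := Fintype.ofFinite G
    obtain rfl : p = 2 := by
      have hd := (Subgroup.card_subgroup_dvd_card δ.range)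
      rw [h2] at hd
      obtain ⟨n, hn⟩ := IsPGroup.iff_card.1 (show IsPGroup p V from fun u =>
        ⟨1, by rw [pow_one]; exact Subtype.ext (hVp u u.2)⟩)
      rw [hn] at hd
      exact ((Nat.prime_dvd_prime_iff_eq Nat.prime_two hp.out).1 (Nat.prime_two.dvd_of_dvd_pow hd)).symm
    -- the element acts as an involution
    have hsq : ∀ a : V, a * a = 1 := fun a => Subtype.ext (by
      have := hVp a a.2
      rwa [pow_two] at this)
    let φ : V ≃* V := MulAut.conjNormal t
    have hφ : ∀ u : V, φ u = u * δ u := fun u => Subtype.ext (by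
      have e1 : ((δ u : V) : G) = (u : G)⁻¹ * (t * u * t⁻¹) := by
        show (u : G) * t * (u : G)⁻¹ * t⁻¹ = _
        have hui : (u : G)⁻¹ = u := inv_eq_of_mul_eq_one_right (congrArg Subtype.val (hsq u))
        rw [hui]; group
      show ((MulAut.conjNormal t u : V) : G) = (u : G) * (δ u : G)
      rw [MulAut.conjNormal_apply, e1]; group)
    have hfix : ∀ a ∈ δ.range, φ a = a := by
      intro a ha
      rcases eq_or_ne a 1 with rfl | ha1
      · exact map_one φ
      · have hrange : ∀ b ∈ δ.range, b = 1 ∨ b = a := by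
          intro b hb
          by_contra! hne
          have : 2 < Nat.card δ.range := by
            classical
            have := Fintype.ofFinite δ.range
            rw [Nat.card_eq_fintype_card, Fintype.two_lt_card_iff]
            exact ⟨⟨1, one_mem _⟩, ⟨a, ha⟩, ⟨b, hb⟩, fun h => ha1 (congrArg Subtype.val h).symm,
              fun h => hne.1 (congrArg Subtype.val h).symm,
              fun h => hne.2 (congrArg Subtype.val h).symm⟩
          omega
        rcases hrange (δ a) ⟨a, rfl⟩ with h | h
        · rw [hφ, h, mul_one]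
        · exact absurd (φ.map_eq_one_iff.1 (by rw [hφ, h, hsq])) ha1
    have h2t : t * t ∈ T ⊓ Subgroup.centralizer (V : Set G) := by
      refine ⟨mul_mem ht ht, Subgroup.mem_centralizer_iff.2 fun u hu => ?_⟩
      have e : φ (φ ⟨u, hu⟩) = ⟨u, hu⟩ := by
        conv_lhs => rw [hφ ⟨u, hu⟩, map_mul, hfix _ ⟨_, rfl⟩, hφ ⟨u, hu⟩, mul_assoc, hsq, mul_one]
      have e' : t * (t * u * t⁻¹) * t⁻¹ = u := by
        have := congrArg Subtype.val e
        simpa [φ, MulAut.conjNormal_apply] using this
      calc u * (t * t) = t * (t * u * t⁻¹) * t⁻¹ * (t * t) := by rw [e']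
        _ = t * t * u := by group
    have hn : ((T ⊓ Subgroup.centralizer (V : Set G)).subgroupOf T).Normal := by
      refine ⟨fun c hc x => ?_⟩
      rw [Subgroup.mem_subgroupOf] at hc ⊢
      refine ⟨SetLike.coe_mem _, ?_⟩
      have hCn : (Subgroup.centralizer (V : Set G)).Normal := Subgroup.normal_centralizer
      simpa using hCn.conj_mem _ hc.2 (x : G)
    exact htV (H31.TwoChar.mem_of_pow_two hn hidx ht h2t).2

/-- Main rigidity statement. -/
theorem le_centralizer_of_generated (hVab : ∀ u ∈ V, ∀ w ∈ V, u * w = w * u)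
    (hVp : ∀ u ∈ V, u ^ p = 1) (hVT : V ≤ T)
    (hidx : ¬ p ∣ (T ⊓ Subgroup.centralizer (V : Set G)).relIndex T) (hS : Split k (G ⧸ V))
    {ε E : MonoidAlgebra k G} (hsupp : Supp (T ⊓ Subgroup.centralizer (V : Set G)) ε)
    (hinv : Inv T ε) (hidem : ε * ε = ε) (horth : ∀ g, g ∉ T → ε * single g 1 * ε = 0)
    (hεE : ε * E = ε)
    (hblk : IsBlockEl ((T ⊓ Subgroup.centralizer (V : Set G)).map (QuotientGroup.mk' V))
      (emb (QuotientGroup.mk' V) ε))
    (hgen : ∀ y, emb (QuotientGroup.mk' V) y = 0 → y * E = y → y ∈ Submodule.span k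
      {w | ∃ z r, (∀ a, a * z = z * a) ∧ emb (QuotientGroup.mk' V) z = 0 ∧ w = z * r}) :
    T ≤ Subgroup.centralizer (V : Set G) := by
  classical
  have := Fintype.ofFinite G
  set θ : MonoidAlgebra k G →ₐ[k] MonoidAlgebra k (G ⧸ V) := emb (QuotientGroup.mk' V) with hθ
  set Hs := T ⊓ Subgroup.centralizer (V : Set G) with hHs
  set Hb := Hs.map (QuotientGroup.mk' V) with hHb
  set η := θ ε with hη
  have hθsingle : ∀ g : G, θ (single g 1) = single (g : G ⧸ V) 1 := fun g => by simp [θ, emb]
  have hεcomm : ∀ g ∈ T, single g 1 * ε = ε * single g 1 := fun g hg => by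
    rw [single_mul_eq_cj, hinv g hg]
  have hεv : ∀ u ∈ V, single u 1 * ε = ε * single u 1 := fun u hu => hεcomm u (hVT hu)
  -- the weighted images of central elements in the kernel
  have hc : ∀ z, (∀ a, a * z = z * a) → θ z = 0 →
      (∀ l : Additive V →+ k, IsCent Hb (wImage l (z * ε))) ∧
      (∀ l : Additive V →+ k, wImage l (z * ε) * η = wImage l (z * ε)) ∧
      ∀ t ∈ T, ∀ l : Additive V →+ k,
        cj (t : G ⧸ V) (wImage (actFun l t) (z * ε)) = wImage l (z * ε) := by
    intro z hz hz0
    set a := z * ε with ha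
    have ha0 : θ a = 0 := by rw [map_mul, hz0, zero_mul]
    have haT : ∀ t ∈ T, single t 1 * a = a * single t 1 := fun t ht => by
      rw [ha, ← mul_assoc, hz, mul_assoc, hεcomm t ht, ← mul_assoc]
    have hsuppT : Supp T a := by
      have e : a = ∑ x : G, ε * single x (z.coeff x) * ε := by
        rw [← Finset.sum_mul, ← Finset.mul_sum, ← H40.eq_sum_single, hz, mul_assoc, hidem]
      rw [e]
      refine Supp.sum _ fun x _ => ?_
      have hx1 : single x (z.coeff x) = z.coeff x • single x 1 := by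
        rw [MonoidAlgebra.smul_single, smul_eq_mul, mul_one]
      rw [hx1, mul_smul_comm, smul_mul_assoc]
      refine Supp.smul ?_ _
      by_cases hx : x ∈ T
      · exact ((hsupp.mono inf_le_left).mul (supp_single hx 1)).mul (hsupp.mono inf_le_left)
      · rw [horth x hx]
        exact H22.supp_zero _
    have hainv : ∀ u : V, ∀ x, a.coeff ((u : G) * x * (u : G)⁻¹) = a.coeff x := fun u x => by
      have h := congrArg (fun b => b.coeff x)
        (show cj ((u : G)⁻¹) a = a by
          rw [cj_eq_single, haT _ (hVT (inv_mem u.2)), mul_assoc,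
            MonoidAlgebra.single_mul_single, mul_inv_cancel, mul_one, ← MonoidAlgebra.one_def,
            mul_one])
      simpa using h
    have hsupp' : ∀ l, Supp Hb (wImage l a) := by
      intro l q hq
      rw [coeff_wImage] at hq
      by_contra hqH
      refine hq ?_
      by_cases hex : ∃ x0 : G, (x0 : G ⧸ V) = q ∧ x0 ∈ T
      swap
      · refine Finset.sum_eq_zero fun x hx => ?_
        rw [hsuppT.coeff_eq_zero fun hT => hex ⟨x, (Finset.mem_filter.1 hx).2, hT⟩, zero_mul]
      obtain ⟨x0, hx0q, hx0T⟩ := hex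
      have hx0V : x0 ∉ Subgroup.centralizer (V : Set G) := fun h =>
        hqH ⟨x0, ⟨hx0T, h⟩, hx0q⟩
      obtain ⟨δ, hδ, h1, h2⟩ := card_range_comm hVab hVp hidx hx0T hx0V
      let _ : CommGroup V :=
        { (inferInstance : Group V) with mul_comm := fun u w => Subtype.ext (hVab _ u.2 _ w.2) }
      have hsum := sum_invariant_mul_eq_zero (p := p) (k := k) (A := V)
        (fun u => Subtype.ext (by simpa using hVp u u.2)) δ.range h1 h2
        (fun s => a.coeff ((s : G) * x0)) (fun w hw s => by
          obtain ⟨u, rfl⟩ := hw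
          show a.coeff (((δ u * s : V) : G) * x0) = a.coeff ((s : G) * x0)
          rw [← hainv u ((s : G) * x0), Subgroup.coe_mul, hδ]
          congr 1
          have hw : x0 * (u : G)⁻¹ * x0⁻¹ ∈ V :=
            (inferInstance : V.Normal).conj_mem _ (inv_mem u.2) x0
          have hc := hVab _ hw _ s.2
          calc (u : G) * x0 * (u : G)⁻¹ * x0⁻¹ * (s : G) * x0
              = (u : G) * ((x0 * (u : G)⁻¹ * x0⁻¹) * (s : G)) * x0 := by group
            _ = (u : G) * ((s : G) * x0) * (u : G)⁻¹ := by rw [hc]; group)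
        l (l (Additive.ofMul (vPart V x0)))
      refine Eq.trans ?_ hsum
      symm
      refine Finset.sum_bij' (fun s _ => (s : G) * x0) (fun x hx => (⟨x * x0⁻¹, ?_⟩ : V)) ?_ ?_
        ?_ ?_ ?_
      · rw [← QuotientGroup.eq_one_iff, QuotientGroup.mk_mul, QuotientGroup.mk_inv,
          (Finset.mem_filter.1 hx).2, hx0q, mul_inv_cancel]
      · intro s _
        rw [Finset.mem_filter, QuotientGroup.mk_mul, (QuotientGroup.eq_one_iff _).2 s.2, one_mul]
        exact ⟨Finset.mem_univ _, hx0q⟩
      · exact fun x _ => Finset.mem_univ _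
      · exact fun s _ => Subtype.ext (by simp)
      · exact fun x _ => by simp
      · intro s _
        rw [vPart_mul, ofMul_mul, map_add]
    refine ⟨fun l => ⟨hsupp' l, ?_⟩, fun l => by rw [← wImage_mul l ha0, ha, mul_assoc, hidem], ?_⟩
    · rintro _ ⟨t, ht, rfl⟩
      have h1 := wImage_single_mul l ha0 t
      rw [actFun_of_centralizes l ht.2, haT t ht.1, wImage_mul l ha0, hθsingle] at h1
      rw [QuotientGroup.mk'_apply, cj_eq_single, ← h1, mul_assoc, MonoidAlgebra.single_mul_single,
        mul_inv_cancel, mul_one, ← MonoidAlgebra.one_def, mul_one]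
    · intro t ht l
      have h1 := wImage_single_mul l ha0 t
      rw [haT t ht, wImage_mul l ha0, hθsingle] at h1
      rw [cj_eq_single, ← h1, mul_assoc, MonoidAlgebra.single_mul_single,
        mul_inv_cancel, mul_one, ← MonoidAlgebra.one_def, mul_one]
  -- the difference of two functions
  intro t ht
  refine Subgroup.mem_centralizer_iff.2 fun v hv => ?_
  suffices hall : ∀ l : Additive V →+ k,
      actFun l t (Additive.ofMul ⟨v, hv⟩) = l (Additive.ofMul ⟨v, hv⟩) by
    by_contra hne
    have hd : MulAut.conjNormal t (⟨v, hv⟩ : V) * (⟨v, hv⟩ : V)⁻¹ ≠ 1 := by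
      intro h
      refine hne ?_
      have h' : t * v * t⁻¹ = v := by
        have := congrArg Subtype.val (mul_inv_eq_one.1 h)
        rwa [MulAut.conjNormal_apply] at this
      calc v * t = t * v * t⁻¹ * t := by rw [h']
        _ = t * v := by group
    obtain ⟨l, hl⟩ := exists_addHom_ne_zero (k := k) (fun u w : V => Subtype.ext (hVab _ u.2 _ w.2))
      (fun u : V => Subtype.ext (hVp u u.2)) hd
    refine hl ?_
    rw [ofMul_mul, ofMul_inv, map_add, map_neg, add_neg_eq_zero]
    exact hall l
  intro l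
  set l' := actFun l t with hl'
  set vv : V := ⟨v, hv⟩
  set y := (single v 1 - 1) * ε with hy
  have hθv : θ (single v 1) = 1 := by
    rw [hθsingle, (QuotientGroup.eq_one_iff _).2 hv, MonoidAlgebra.one_def]
  have hy0 : θ y = 0 := by rw [map_mul, map_sub, hθv, map_one, sub_self, zero_mul]
  have hLy : ∀ m : Additive V →+ k, wImage m y = m (Additive.ofMul vv) • η := fun m => by
    rw [hy, sub_mul, one_mul, map_sub, show single v (1 : k) = single ((vv : V) : G) 1 from rfl,
      wImage_single_mul_vsubgroup, add_sub_cancel_left]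
  obtain ⟨N, f, g, hsum⟩ := Submodule.mem_span_set'.1
    (hgen y hy0 (by rw [hy, mul_assoc, hεE]))
  choose z r hz hz0 hzr using fun i => (g i).2
  have hεy : ε * y = y := by
    rw [hy, ← mul_assoc, mul_sub, mul_one, ← hεv v hv, sub_mul, mul_assoc, hidem, sub_mul, one_mul]
  have hy' : y = ∑ i, f i • ((z i * ε) * r i) := by
    conv_lhs => rw [← hεy, ← hsum, Finset.mul_sum]
    refine Finset.sum_congr rfl fun i _ => ?_
    rw [mul_smul_comm, hzr i, ← mul_assoc, hz i ε]
  have hL : ∀ m : Additive V →+ k, m (Additive.ofMul vv) • η =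
      ∑ i, wImage m (z i * ε) * (f i • θ (r i)) := fun m => by
    rw [← hLy, hy', map_sum]
    refine Finset.sum_congr rfl fun i _ => ?_
    rw [map_smul, wImage_mul m (show θ (z i * ε) = 0 by rw [map_mul, hz0 i, zero_mul]),
      mul_smul_comm]
  have hηfix : cj (t : G ⧸ V) η = η := by
    have h := cj_emb_map (k := k) (QuotientGroup.mk' V) t ε
    rw [hinv t ht] at h
    exact h
  -- nilpotent differences
  have hnil : ∀ i, IsNilpotent (wImage l' (z i * ε) - wImage l (z i * ε)) := by
    intro i
    obtain ⟨hC, hCη, hCt⟩ := hc (z i) (hz i) (hz0 i)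
    obtain ⟨α, hα⟩ := hS.local_prop Hb η _ hblk (hC l)
    obtain ⟨α', hα'⟩ := hS.local_prop Hb η _ hblk (hC l')
    have h' : IsNilpotent (wImage l (z i * ε) * η - α' • η) := by
      have := hα'.map (cj (k := k) (t : G ⧸ V))
      rwa [map_sub, map_mul, map_smul, hηfix, hl', hCt t ht l] at this
    obtain rfl : α = α' := H22.eq_of_isNilpotent_sub hblk (hC l) hα h'
    rw [hCη] at hα hα'
    have hcomm : Commute (wImage l' (z i * ε) - α • η) (wImage l (z i * ε) - α • η) :=
      IsCent.comm ((hC l').sub (hblk.cent.smul α)) ((hC l).sub (hblk.cent.smul α)).supp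
    simpa using hcomm.isNilpotent_sub hα' hα
  have hcut : ∀ n b : MonoidAlgebra k (G ⧸ V), Supp Hb n → cut Hb (n * b) = n * cut Hb b := by
    intro n b hn
    have := Fintype.ofFinite (G ⧸ V)
    refine H40.ext_coeff fun x => ?_
    have hterm : ∀ w, x ∈ Hb → n.coeff w * (cut Hb b).coeff (w⁻¹ * x) = n.coeff w * b.coeff (w⁻¹ * x) :=
      fun w hx => by
        by_cases hw : n.coeff w = 0
        · rw [hw, zero_mul, zero_mul]
        · rw [H22.coeff_cut_of_mem _ (mul_mem (inv_mem (hn w hw)) hx)]
    by_cases hx : x ∈ Hb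
    · rw [H22.coeff_cut_of_mem _ hx, H40.coeff_mul_eq_sum, H40.coeff_mul_eq_sum]
      exact Finset.sum_congr rfl fun w _ => (hterm w hx).symm
    · rw [H22.coeff_cut_of_notMem _ hx,
        (Supp.mul hn (H22.supp_cut Hb b)).coeff_eq_zero hx]
  by_contra hne
  set c := l' (Additive.ofMul vv) - l (Additive.ofMul vv)
  have hdiff : c • η = ∑ i, (wImage l' (z i * ε) - wImage l (z i * ε)) * (f i • cut Hb (θ (r i))) := by
    have h := congrArg (cut Hb) (congrArg₂ (· - ·) (hL l') (hL l))
    simp only [← Finset.sum_sub_distrib, ← sub_mul, ← sub_smul, map_sum, map_smul,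
      H22.cut_of_supp hblk.cent.supp] at h
    refine h.trans (Finset.sum_congr rfl fun i _ => ?_)
    rw [hcut _ _ (((hc (z i) (hz i) (hz0 i)).1 l').sub ((hc (z i) (hz i) (hz0 i)).1 l)).supp,
      map_smul]
  have hn := isNilpotent_sum_mul (suppAlg k Hb) (fun i => wImage l' (z i * ε) - wImage l (z i * ε))
    (fun i => f i • cut Hb (θ (r i))) Finset.univ
    (fun i _ => (((hc (z i) (hz i) (hz0 i)).1 l').sub ((hc (z i) (hz i) (hz0 i)).1 l)).supp)
    (fun i _ => (H22.supp_cut Hb _).smul _)
    (fun i _ a ha => IsCent.comm (((hc (z i) (hz i) (hz0 i)).1 l').sub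
      ((hc (z i) (hz i) (hz0 i)).1 l)) ha)
    fun i _ => hnil i
  rw [← hdiff] at hn
  have hc0 : c ≠ 0 := sub_ne_zero.2 hne
  refine hblk.ne_zero (H22.isIdempotentElem_eq_zero_of_isNilpotent hblk.idem ?_)
  have := hn.smul c⁻¹
  rwa [inv_smul_smul₀ hc0] at this

end Cfsg.Agent.H31.NormalDefectDegrees
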