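import Cfsg.Agent.H31.NormalDefectDegrees.SetAlgebra
import Cfsg.Agent.H31.NormalDefectDegrees.Rigidity
import Cfsg.Agent.H22.PairNilpotentDict
import Cfsg.Agent.H40.NormalDefect
import Cfsg.Agent.H40.NilpotentBlocks
import Cfsg.Agent.H40.PCore
import Cfsg.Agent.H20.PxQ
import Cfsg.Agent.H24.PGroupBasic
import Cfsg.Agent.S0169

/-!
# Equal height-zero degrees with a normal defect group
-/

set_option autoImplicit false
set_option linter.unusedSectionVars false
set_option maxHeartbeats 2000000
set_option synthInstance.maxHeartbeats 200000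

namespace Cfsg.Agent.H31.NormalDefectDegrees

open Cfsg Module
open scoped commutatorElement
open Cfsg.Agent.H22 (cj cut emb Supp Inv IsCent IsBlockEl IsMaxEl elTop pairStab)
open Cfsg.Agent.H40 (BlockClosed quotSet)
open Cfsg.Agent.H41 (ResField)
open MonoidAlgebra (single)

universe u

theorem emb_emb {k : Type*} [Field k] {A : Type*} [Group A] [Finite A] {B : Type*} [Group B] [Finite B]
    {C : Type*} [Group C] [Finite C] (f : A →* B) (g : B →* C) (x : MonoidAlgebra k A) :
    emb g (emb f x) = emb (g.comp f) x := by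
  induction x using MonoidAlgebra.induction_linear with
  | zero => simp
  | add x y hx hy => simp [hx, hy]
  | single a r => simp [emb]

/-- The kernel of the map to the quotient by an abelian normal `p`-subgroup is nil. -/
theorem isNilpotent_of_emb_eq_zero {k : Type*} [Field k] {G : Type*} [Group G] [Finite G] {p : ℕ}
    [Fact p.Prime] [CharP k p] (V : Subgroup G) [V.Normal] (hVp : IsPGroup p V)
    (hab : ∀ u ∈ V, ∀ w ∈ V, u * w = w * u) {a : MonoidAlgebra k G}
    (ha : emb (QuotientGroup.mk' V) a = 0) : IsNilpotent a := by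
  classical
  have := Fintype.ofFinite G
  have : FiniteDimensional k (MonoidAlgebra k G) :=
    Module.Finite.of_basis (MonoidAlgebra.basis G k)
  let J : Submodule k (MonoidAlgebra k G) := LinearMap.ker (emb (QuotientGroup.mk' V)).toLinearMap
  have hJmem : ∀ x, x ∈ J ↔ emb (QuotientGroup.mk' V) x = 0 := fun x => Iff.rfl
  have hJ : ∀ b, ∀ x ∈ J, b * x ∈ J := fun b x hx => (hJmem _).2 (by
    rw [map_mul, (hJmem x).1 hx, mul_zero])
  have hanti : ∀ m, J ^ (m + 2) ≤ J ^ (m + 1) := fun m => by
    rw [pow_succ' J (m + 1)]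
    refine Submodule.mul_le.2 fun x hx y hy => ?_
    rw [pow_succ' J m] at hy ⊢
    refine Submodule.mul_induction_on hy (fun u hu w hw => ?_) fun u w hu hw => ?_
    · rw [← mul_assoc]
      exact Submodule.mul_mem_mul (hJ x u hu) hw
    · rw [mul_add]; exact Submodule.add_mem _ hu hw
  obtain ⟨m, hm⟩ : ∃ m, J ^ (m + 2) = J ^ (m + 1) := by
    by_contra! hne
    have h : ∀ m, finrank k (J ^ (m + 1) : Submodule k (MonoidAlgebra k G)) + m ≤
        finrank k (J ^ 1 : Submodule k (MonoidAlgebra k G)) := by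
      intro m
      induction m with
      | zero => simp
      | succ m ih =>
        have := Submodule.finrank_lt_finrank_of_lt (lt_of_le_of_ne (hanti m) (hne m))
        show finrank k (J ^ (m + 2) : Submodule k (MonoidAlgebra k G)) + (m + 1) ≤ _
        omega
    have := h (finrank k (J ^ 1 : Submodule k (MonoidAlgebra k G)) + 1)
    omega
  set n : G → MonoidAlgebra k G := fun z => if z ∈ V then single z 1 - 1 else 0
  have hnV : ∀ z, Supp V (n z) := fun z => by
    by_cases hz : z ∈ V
    · simp only [n, if_pos hz]; exact (supp_single hz 1).sub (H22.supp_one V)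
    · simp only [n, if_neg hz]; exact H22.supp_zero _
  have hcomm : ∀ i j, Commute (n i) (n j) := fun i j => by
    by_cases hi : i ∈ V
    · simp only [n, if_pos hi]
      exact commute_single_sub_one (fun c hc => hab i hi c hc) (hnV j)
    · simp [n, hi]
  have hnil : ∀ z, IsNilpotent (n z) := fun z => by
    by_cases hz : z ∈ V
    · simp only [n, if_pos hz]
      obtain ⟨j, hj⟩ := IsPGroup.iff_orderOf.1 hVp ⟨z, hz⟩
      exact isNilpotent_single_sub_one ⟨j, by rwa [← Subgroup.orderOf_coe] at hj⟩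
    · simp [n, hz]
  have hzero := eq_zero_of_decomp n hcomm hnil
    (Finset.univ.filter (· ∈ (⊤ : Subgroup G) ⊓ (QuotientGroup.mk' V).ker))
    (↑(J ^ (m + 1))) (fun x hx => by
      have hx' : x ∈ J * J ^ (m + 1) := by
        rw [← pow_succ', hm]; exact hx
      refine Submodule.mul_induction_on hx' (fun u hu w hw => ?_) fun u w hu hw => ?_
      · obtain ⟨b, -, hb⟩ := exists_decomp_ker (C := (⊤ : Subgroup G))
          (fun y _ => Subgroup.mem_top y) ((hJmem u).1 hu)
        refine ⟨fun z => b z * w, fun z => ?_, ?_⟩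
        · show b z * w ∈ J ^ (m + 1)
          rw [pow_succ'] at hw ⊢
          refine Submodule.mul_induction_on hw (fun s hs t ht => ?_) fun s t hs ht => ?_
          · rw [← mul_assoc]; exact Submodule.mul_mem_mul (hJ _ _ hs) ht
          · rw [mul_add]; exact Submodule.add_mem _ hs ht
        · conv_lhs => rw [hb, Finset.sum_mul]
          refine Finset.sum_congr rfl fun z hz => ?_
          have hzV : z ∈ V := by
            have h2 := (Subgroup.mem_inf.1 (Finset.mem_filter.1 hz).2).2
            rwa [QuotientGroup.ker_mk'] at h2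
          simp only [n, if_pos hzV, mul_assoc]
      · obtain ⟨y, hy, rfl⟩ := hu
        obtain ⟨y', hy', rfl⟩ := hw
        exact ⟨fun z => y z + y' z, fun z => Submodule.add_mem _ (hy z) (hy' z), by
          simp [mul_add, Finset.sum_add_distrib]⟩)
  exact ⟨m + 1, hzero _ (Submodule.pow_mem_pow _ ((hJmem a).2 ha) (m + 1))⟩

variable {G : Type u} [Group G] [Fintype G] {p : ℕ} [hp : Fact p.Prime] {M : Ideal Cfsg.AlgInt}
  [M.IsMaximal] {B : Set (IrrCharacter G)} {D : Subgroup G}

/-- The inertial index of a maximal pair on a normal subgroup is prime to `p`. -/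
theorem not_dvd_relIndex_pairStab [D.Normal] [CharP (ResField M) p] (hB : IsPBlock M B)
    {e : MonoidAlgebra (ResField M) G} (hm : IsMaxEl p ⊤ (elTop M B) (D, e)) :
    ¬ p ∣ (D ⊔ Subgroup.centralizer (D : Set G)).relIndex (pairStab D e) := by
  classical
  have hS := H22.split M G
  have hb := H22.isBlockEl_elTop (M := M) hB
  set C := Subgroup.centralizer (D : Set G)
  set T := pairStab D e
  have hblk : IsBlockEl C e := by simpa using hm.pair.block
  have hCT : C ≤ T := H22.centralizer_le_pairStab hblk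
  have hDT : D ≤ T := H22.le_pairStab hblk.cent.supp
  have hinv : Inv T e := H22.inv_iff_le_stabEl.2 inf_le_right
  have hTN : T ≤ Subgroup.normalizer (C : Set G) :=
    inf_le_left.trans (H22.normalizer_le_normalizer_centralizer D)
  have hDel := hm.isDefEl hS hb
  have heT : IsBlockEl T e := H22.isBlockEl_pairStab hm.pair.pGroup hblk
  obtain ⟨D', hD', hge⟩ := H22.exists_isDefEl_ge hS hm Relation.ReflTransGen.refl inf_le_left heT
  rw [inf_eq_left.2 hDT] at hge
  have heb : elTop M B * e = e := by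
    have h : cut C (elTop M B) * e = e := hm.below
    rwa [H22.cut_of_supp (H22.supp_centralizer_of_idem hm.pair.pGroup le_top
      (Subgroup.normalizer_eq_top (H := D)).ge hb.cent hb.idem)] at h
  have hne : cut (Subgroup.centralizer (D' : Set G)) (elTop M B) ≠ 0 := by
    intro h0
    refine hD'.ne_zero ?_
    rw [← heb, H22.cut_mul hD'.pGroup (hb.cent.inv.mono le_top)
      (hinv.mono hD'.le), h0, zero_mul]
  have hDD' : D = D' := Subgroup.eq_of_le_of_card_ge hge (hDel.card_le le_top hD'.pGroup hne)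
  subst hDD'
  let φ := H22.stabConj D e
  have hker : ∀ t : T, φ t = 1 ↔ (t : G) ∈ C := fun t => by
    constructor
    · intro h
      refine Subgroup.mem_centralizer_iff.2 fun d hd => ?_
      have h' : (t : G) * d * (t : G)⁻¹ = d :=
        congrArg (fun a : MulAut D => ((a ⟨d, hd⟩ : D) : G)) h
      calc d * (t : G) = (t : G) * d * (t : G)⁻¹ * t := by rw [h']
        _ = _ := by group
    · intro h
      refine MulEquiv.ext fun x => Subtype.ext ?_
      show (t : G) * x * (t : G)⁻¹ = x
      rw [← Subgroup.mem_centralizer_iff.1 h x x.2, mul_inv_cancel_right]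
  set K := D ⊔ C
  have hKφ : (K.subgroupOf T).map φ = (D.subgroupOf T).map φ := by
    rw [Subgroup.subgroupOf_sup hDT hCT, Subgroup.map_sup, sup_eq_left,
      Subgroup.map_le_iff_le_comap]
    intro t ht
    rw [Subgroup.mem_comap, (hker t).2 ht]
    exact one_mem _
  intro hdvd
  obtain ⟨R⟩ : Nonempty (Sylow p φ.range) := inferInstance
  have hU := H22.card_le_defect_image hS hCT hTN hblk hinv hD' φ (fun t ht => (hker t).2 ht)
    (U := (R : Subgroup φ.range).map φ.range.subtype) (Subgroup.map_subtype_le _) (R.2.map _)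
  rw [Subgroup.card_map_of_injective φ.range.subtype_injective, R.card_eq_multiplicity, ← hKφ] at hU
  have hkerK : φ.ker ≤ K.subgroupOf T := fun t ht =>
    Subgroup.mem_subgroupOf.2 (Subgroup.mem_sup_right ((hker t).1 ht))
  have hidx : ((K.subgroupOf T).map φ.rangeRestrict).index = K.relIndex T := by
    rw [Subgroup.index_map_eq _ φ.rangeRestrict_surjective
      (by rw [MonoidHom.ker_rangeRestrict]; exact hkerK)]
    rfl
  set I := (K.subgroupOf T).map φ.rangeRestrict
  have hI : Nat.card ((K.subgroupOf T).map φ) = Nat.card I := by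
    rw [← Subgroup.card_map_of_injective φ.range.subtype_injective, Subgroup.map_map]
    rfl
  have hIp : IsPGroup p I := by
    have h1 : IsPGroup p ((K.subgroupOf T).map φ) := by
      rw [hKφ]
      exact (hm.pair.pGroup.of_equiv (Subgroup.subgroupOfEquivOfLe hDT).symm).map φ
    obtain ⟨r, hr⟩ := IsPGroup.iff_card.1 h1
    exact IsPGroup.of_card (hI ▸ hr)
  obtain ⟨r, hr⟩ := IsPGroup.iff_card.1 hIp
  have hmul := I.card_mul_index
  rw [hI, hr] at hU
  have hp1 := hp.out.one_lt
  have hfac : (Nat.card φ.range).factorization p = r + (K.relIndex T).factorization p := by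
    rw [← hmul, hidx, hr, Nat.factorization_mul (pow_ne_zero _ hp.out.ne_zero)
      (hidx ▸ Subgroup.index_ne_zero_of_finite), Finsupp.add_apply, hp.out.factorization_pow,
      Finsupp.single_eq_same]
  have hle : (Nat.card φ.range).factorization p ≤ r :=
    (Nat.pow_le_pow_iff_right hp1).1 hU
  have hpos : 0 < (K.relIndex T).factorization p :=
    hp.out.factorization_pos_of_dvd (hidx ▸ Subgroup.index_ne_zero_of_finite) hdvd
  omega

/-- Equal height-zero degrees: the stabiliser of a maximal pair is the defect group times its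
centraliser. -/
theorem mem_sup_of_mem_pairStab [D.Normal] [CharP (ResField M) p] (hM : IsPModular p M)
    (hB : IsPBlock M B) (hD : IsDefectGroup p M B D) {e : MonoidAlgebra (ResField M) G}
    (hm : IsMaxEl p ⊤ (elTop M B) (D, e)) {f : ℕ}
    (heq : ∀ χ ∈ B, blockHeight p B (χ : G → ℂ) = 0 → charDegree (χ : G → ℂ) = f) :
    ∀ x ∈ pairStab D e, x ∈ D ⊔ Subgroup.centralizer (D : Set G) := by
  classical
  have := H43.D1.isAlgClosed_resField M
  set C := Subgroup.centralizer (D : Set G) with hC
  set T0 := pairStab D e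
  set L := D ⊔ C
  have hDp : IsPGroup p D := hm.pair.pGroup
  have hidx := not_dvd_relIndex_pairStab hB hm
  have hblk : IsBlockEl C e := by simpa using hm.pair.block
  have hCT : C ≤ T0 := H22.centralizer_le_pairStab hblk
  have hDT : D ≤ T0 := H22.le_pairStab hblk.cent.supp
  have hLT : L ≤ T0 := sup_le hDT hCT
  have hCn : C.Normal := Subgroup.normal_centralizer
  -- the Frattini subgroup
  set N : Subgroup G := (frattini D).map D.subtype with hN
  have hNn : N.Normal := ConjAct.normal_of_characteristic_of_normal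
  have hND : N ≤ D := Subgroup.map_subtype_le _
  have hmemN : ∀ x : D, x ∈ frattini D → (x : G) ∈ N := fun x hx => Subgroup.mem_map_of_mem _ hx
  set V : Subgroup (G ⧸ N) := D.map (QuotientGroup.mk' N) with hV
  have hVn : V.Normal := (inferInstance : D.Normal).map _ (QuotientGroup.mk'_surjective N)
  have hVab : ∀ u ∈ V, ∀ w ∈ V, u * w = w * u := by
    rintro _ ⟨a, ha, rfl⟩ _ ⟨b, hb, rfl⟩
    rw [← map_mul, ← map_mul, QuotientGroup.mk'_apply, QuotientGroup.mk'_apply, QuotientGroup.eq]
    have h : ⁅(⟨b, hb⟩ : D)⁻¹, (⟨a, ha⟩ : D)⁻¹⁆ ∈ frattini D :=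
      H24.commutator_le_frattini hDp
        (Subgroup.commutator_mem_commutator (Subgroup.mem_top _) (Subgroup.mem_top _))
    have h' := hmemN _ h
    simpa [commutatorElement_def, mul_assoc] using h'
  have hVp : ∀ u ∈ V, u ^ p = 1 := by
    rintro _ ⟨a, ha, rfl⟩
    rw [← map_pow, QuotientGroup.mk'_apply, QuotientGroup.eq_one_iff]
    exact hmemN _ (H24.pow_mem_frattini hDp ⟨a, ha⟩)
  -- centralising modulo the Frattini subgroup
  have hcrit : ∀ x ∈ T0, QuotientGroup.mk' N x ∈ Subgroup.centralizer (V : Set (G ⧸ N)) →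
      x ∈ L := by
    intro x hx hxV
    obtain ⟨a, ha⟩ := H22.exists_pow_regular (p := p) x
    set y := x ^ p ^ a
    have hyV : QuotientGroup.mk' N y ∈ Subgroup.centralizer (V : Set (G ⧸ N)) := by
      rw [map_pow]; exact pow_mem hxV _
    have hyC : y ∈ C := by
      refine H20.le_centralizer_of_trivial_on_frattini (A := Subgroup.zpowers y) (K := D)
        (fun g _ => by rw [Subgroup.normalizer_eq_top]; exact Subgroup.mem_top g) ?_ ?_
        (Subgroup.mem_zpowers y)
      · rw [Nat.card_zpowers]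
        obtain ⟨r, hr⟩ := IsPGroup.iff_card.1 (hDp.to_subgroup (frattini D))
        rw [hr]
        exact (H22.coprime_pow_of_not_dvd ha r).symm
      · intro b hb d hd
        have hbV : QuotientGroup.mk' N b ∈ Subgroup.centralizer (V : Set (G ⧸ N)) := by
          obtain ⟨j, rfl⟩ := Subgroup.mem_zpowers_iff.1 hb
          rw [map_zpow]; exact Subgroup.zpow_mem _ hyV j
        show _ ∈ N
        rw [← QuotientGroup.eq_one_iff, ← QuotientGroup.mk'_apply]
        have h := Subgroup.mem_centralizer_iff.1 hbV _ (Subgroup.mem_map_of_mem _ hd)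
        rw [map_mul, map_mul, map_mul, map_inv, map_inv, ← h]
        group
    have hnL : (L.subgroupOf T0).Normal :=
      (Subgroup.sup_normal D C).subgroupOf T0
    have h1 : (⟨x, hx⟩ : T0) ^ p ^ a ∈ L.subgroupOf T0 :=
      Subgroup.mem_subgroupOf.2 (Subgroup.mem_sup_right hyC)
    have h2 : (⟨x, hx⟩ : T0) ^ L.relIndex T0 ∈ L.subgroupOf T0 :=
      Subgroup.pow_index_mem _ _
    have hcop : Nat.gcd (p ^ a) (L.relIndex T0) = 1 :=
      Nat.Coprime.pow_left a ((hp.out.coprime_iff_not_dvd).2 hidx)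
    have h3 : (⟨x, hx⟩ : T0) ^ (Nat.gcd (p ^ a) (L.relIndex T0) : ℤ) ∈ L.subgroupOf T0 := by
      rw [Nat.gcd_eq_gcd_ab, zpow_add, zpow_mul, zpow_mul, zpow_natCast, zpow_natCast]
      exact mul_mem (Subgroup.zpow_mem _ h1 _) (Subgroup.zpow_mem _ h2 _)
    rw [hcop, Nat.cast_one, zpow_one] at h3
    exact Subgroup.mem_subgroupOf.1 h3
  -- the elements
  set ε := emb (QuotientGroup.mk' N) e with hε
  set T := T0.map (QuotientGroup.mk' N) with hT
  have hLV : ∀ x ∈ L, QuotientGroup.mk' N x ∈ Subgroup.centralizer (V : Set (G ⧸ N)) := by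
    intro x hx
    have : L ≤ (Subgroup.centralizer (V : Set (G ⧸ N))).comap (QuotientGroup.mk' N) := by
      refine sup_le (fun d hd => Subgroup.mem_centralizer_iff.2 fun u hu =>
        hVab u hu _ (Subgroup.mem_map_of_mem _ hd)) fun c hc => ?_
      refine Subgroup.mem_centralizer_iff.2 ?_
      rintro _ ⟨d, hd, rfl⟩
      rw [← map_mul, ← map_mul, Subgroup.mem_centralizer_iff.1 hc d hd]
    exact this hx
  have hH : T ⊓ Subgroup.centralizer (V : Set (G ⧸ N)) = L.map (QuotientGroup.mk' N) := by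
    refine le_antisymm ?_ (le_inf (Subgroup.map_mono hLT) ?_)
    · rintro _ ⟨⟨x, hx, rfl⟩, hxV⟩
      exact Subgroup.mem_map_of_mem _ (hcrit x hx hxV)
    · rintro _ ⟨x, hx, rfl⟩
      exact hLV x hx
  have hVT : V ≤ T := Subgroup.map_mono hDT
  have hidx' : ¬ p ∣ (T ⊓ Subgroup.centralizer (V : Set (G ⧸ N))).relIndex T := by
    rw [hH, Subgroup.relIndex_map_map, QuotientGroup.ker_mk',
      sup_eq_left.2 (hND.trans le_sup_left), sup_eq_left.2 (hND.trans hDT)]
    exact hidx
  have hsupp : Supp (T ⊓ Subgroup.centralizer (V : Set (G ⧸ N))) ε := by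
    rw [hH]
    exact supp_emb_map _ (hblk.cent.supp.mono le_sup_right)
  have hinv : Inv T ε := by
    rintro _ ⟨t, ht, rfl⟩
    rw [cj_emb_map, show cj t e = e from ht.2]
  have hidem : ε * ε = ε := by rw [← map_mul, hblk.idem]
  have horth : ∀ g, g ∉ T → ε * single g 1 * ε = 0 := by
    intro g hg
    obtain ⟨g0, rfl⟩ := QuotientGroup.mk'_surjective N g
    have hg0 : g0 ∉ T0 := fun h => hg (Subgroup.mem_map_of_mem _ h)
    have hblk' : IsBlockEl C (cj g0 e) := by
      have h := hblk.cj g0
      rwa [H22.cS_eq_self (show g0 ∈ Subgroup.normalizer (C : Set G) by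
        rw [Subgroup.normalizer_eq_top]; exact Subgroup.mem_top g0)] at h
    have hne : cj g0 e ≠ e := fun h => hg0 ⟨by
      rw [Subgroup.normalizer_eq_top]; exact Subgroup.mem_top g0, h⟩
    have h0 : e * cj g0 e = 0 := (hblk.eq_or_mul_eq_zero hblk').resolve_left fun h => hne h.symm
    rw [mul_assoc, single_mul_eq_cj, cj_emb_map, ← mul_assoc, ← map_mul, h0, map_zero, zero_mul]
  -- the idempotent of the block
  have hb := H22.isBlockEl_elTop (M := M) hB
  have heb : e * elTop M B = e := by
    have h : cut C (elTop M B) * e = e := hm.below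
    rw [H22.cut_of_supp (H22.supp_centralizer_of_idem hm.pair.pGroup le_top
      (Subgroup.normalizer_eq_top (H := D)).ge hb.cent hb.idem)] at h
    rwa [← IsCent.comm hb.cent (a := elTop M B) (b := e) fun x _ => Subgroup.mem_top x]
  have hS1 : BlockClosed M (quotSet N B) := H40.blockClosed_quotSet N hB
  set E := setEl hS1 with hE
  have hEq : emb (QuotientGroup.mk' N) (elTop M B) = E := by
    rw [elTop_eq_setEl hB, emb_setEl N _ hS1]
  have hεE : ε * E = ε := by rw [← hEq, ← map_mul, heb]
  -- the image of the pair modulo `D`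
  set ρ := (QuotientGroup.mk' V).comp (QuotientGroup.mk' N) with hρ
  have hρker : ρ.ker = D := by
    rw [hρ, ← MonoidHom.comap_ker, QuotientGroup.ker_mk', hV,
      Subgroup.comap_map_eq, QuotientGroup.ker_mk', sup_eq_left.2 hND]
  have hblkη : IsBlockEl ((T ⊓ Subgroup.centralizer (V : Set (G ⧸ N))).map (QuotientGroup.mk' V))
      (emb (QuotientGroup.mk' V) ε) := by
    have h := isBlockEl_emb (p := p) (f := ρ) hblk (fun z hz c hc => by
        have hzD : z ∈ D := by rw [← hρker]; exact hz.2
        exact Subgroup.mem_centralizer_iff.1 hc z hzD)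
      (hDp.to_le (by rw [hρker]; exact inf_le_right))
    rw [hε, emb_emb, hH, Subgroup.map_map]
    have hmap : L.map ρ = C.map ρ := by
      rw [Subgroup.map_sup, sup_eq_right]
      exact ((Subgroup.map_eq_bot_iff D).2 hρker.ge).le.trans bot_le
    rw [hmap]
    exact h
  -- degrees of the quotient characters
  obtain ⟨y, hy, hPy⟩ := H40.isDefectGroup_iff.1 hD
  have hidxy : (Subgroup.centralizer ({y} : Set G)).index.factorization p =
      D.index.factorization p := by
    rw [← Subgroup.relIndex_mul_index hPy.1, Nat.factorization_mul (H40.relIndex_ne_zero' _ _)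
      Subgroup.index_ne_zero_of_finite, Finsupp.add_apply,
      Nat.factorization_eq_zero_of_not_dvd hPy.2.2, zero_add]
  have hVidx : V.index = D.index := by
    exact Subgroup.index_map_eq _ (QuotientGroup.mk'_surjective N)
      (by rw [QuotientGroup.ker_mk']; exact hND)
  have hdeg : ∀ φ : IrrCharacter (G ⧸ N), φ ∈ quotSet N B →
      charDegree (φ : G ⧸ N → ℂ) = f ∧
      (charDegree (φ : G ⧸ N → ℂ)).factorization p = D.index.factorization p := by
    intro φ hφ
    have hsame : charDegree (φ : G ⧸ N → ℂ) = charDegree (H44.inflate N φ : G → ℂ) := by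
      apply Nat.cast_injective (R := ℂ)
      rw [← H42.irr_one_eq, ← H42.irr_one_eq, H44.inflate_apply, QuotientGroup.mk_one]
    obtain ⟨n, ρ', hirr, hρ'⟩ := φ.2
    have := hirr
    have hd : charDegree (φ : G ⧸ N → ℂ) ∣ V.index := by
      rw [H42.charDegree_of_eq_nat (χ := (φ : G ⧸ N → ℂ)) (by rw [← hρ', ρ'.char_one]),
        Module.finrank_fin_fun]
      have h := Cfsg.Agent.S0169.result ρ' V hVab
      rwa [Module.finrank_fin_fun] at h
    have h0 : blockHeight p B (H44.inflate N φ : G → ℂ) = 0 := by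
      rw [blockHeight, H40.sInf_degree_eq_index hM hB hy, hidxy, ← hsame, ← hVidx]
      exact Nat.sub_eq_zero_of_le ((Nat.factorization_le_iff_dvd
        (H42.charDegree_pos φ).ne' Subgroup.index_ne_zero_of_finite).2 hd p)
    refine ⟨hsame.trans (heq _ hφ h0), ?_⟩
    rw [hsame, H40.factorization_eq_index_of_height_zero hM hB hy hφ h0, hidxy]
  -- matrix units in the quotient
  set S2 := quotSet V (quotSet N B)
  have hS2 : BlockClosed M S2 := blockClosed_quotSet' V hS1
  have hdeg2 : ∀ ω ∈ S2, charDegree (ω : (G ⧸ N) ⧸ V → ℂ) = f ∧ BlockClosed M ({ω} : Set _) := by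
    intro ω hω
    have hsame : charDegree (ω : (G ⧸ N) ⧸ V → ℂ) = charDegree (H44.inflate V ω : G ⧸ N → ℂ) := by
      apply Nat.cast_injective (R := ℂ)
      rw [← H42.irr_one_eq, ← H42.irr_one_eq, H44.inflate_apply, QuotientGroup.mk_one]
    obtain ⟨h1, h2⟩ := hdeg _ hω
    refine ⟨hsame.trans h1, ?_⟩
    have hsing := H40.blockOf_eq_singleton hM ω (by
      rw [hsame, h2, ← hVidx]
      exact le_of_eq rfl)
    exact hsing ▸ H40.blockClosed_of_isPBlock (H41.isPBlock_blockOf ω)
  have hθE : emb (QuotientGroup.mk' V) E = setEl hS2 := emb_setEl V hS1 hS2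
  choose F hFs hFk using fun ω : S2 => exists_matrix_singleton (hdeg2 ω ω.2).2
  have hne2 : Nonempty S2 := by
    by_contra hemp
    refine hblkη.ne_zero ?_
    have h0 : setEl hS2 = 0 := by
      have hr := finrank_range_setEl hS2
      rw [Finset.sum_eq_zero (fun ω hω => absurd ⟨⟨ω, H42.mem_blockFinset.1 hω⟩⟩ hemp),
        Submodule.finrank_eq_zero, LinearMap.range_eq_bot] at hr
      have := LinearMap.congr_fun hr 1
      simpa using this
    rw [← hεE, map_mul, hθE, h0, mul_zero]
  have hf0 : f ≠ 0 := by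
    obtain ⟨ω⟩ := hne2
    rw [← (hdeg2 ω ω.2).1]
    exact (H42.charDegree_pos (ω : IrrCharacter ((G ⧸ N) ⧸ V))).ne'
  obtain ⟨f', rfl⟩ := Nat.exists_eq_succ_of_ne_zero hf0
  let F0 : MonoidAlgebra (ResField M) (G ⧸ N) →ₐ[ResField M]
      (S2 → Matrix (Fin (f' + 1)) (Fin (f' + 1)) (ResField M)) :=
    Pi.algHom _ _ fun ω => (Matrix.reindexAlgEquiv (ResField M) (ResField M)
      (finCongr (hdeg2 ω ω.2).1)).toAlgHom.comp ((F ω).comp (emb (QuotientGroup.mk' V)))
  have horth2 : ∀ ω ω' : S2, ω ≠ ω' →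
      setEl (hdeg2 ω ω.2).2 * setEl (hdeg2 ω' ω'.2).2 = 0 := by
    intro ω ω' hne
    have h : H40.setLocIdem (hdeg2 ω ω.2).2 * H40.setLocIdem (hdeg2 ω' ω'.2).2 = 0 := by
      apply H41.incl_injective M
      rw [map_mul, map_zero, H40.incl_setLocIdem, H40.incl_setLocIdem]
      refine H41.center_ext_omega fun χ => ?_
      rw [map_mul, map_zero, H41.omega_blockIdem, H41.omega_blockIdem]
      by_cases h1 : χ = (ω : IrrCharacter ((G ⧸ N) ⧸ V))
      · have : χ ≠ (ω' : IrrCharacter ((G ⧸ N) ⧸ V)) := fun h2 => hne (Subtype.ext (h1 ▸ h2))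
        simp [this]
      · simp [h1]
    show ((H41.redZ M (H40.setLocIdem (hdeg2 ω ω.2).2) * H41.redZ M (H40.setLocIdem (hdeg2 ω' ω'.2).2) :
      H41.groupAlgCenter (ResField M) ((G ⧸ N) ⧸ V)) : MonoidAlgebra (ResField M) ((G ⧸ N) ⧸ V)) = 0
    rw [← map_mul, h, map_zero]
    rfl
  have hdec2 : setEl hS2 = ∑ ω : S2, setEl (hdeg2 ω ω.2).2 := by
    have h : H40.setLocIdem hS2 = ∑ ω : S2, H40.setLocIdem (hdeg2 ω ω.2).2 := by
      apply H41.incl_injective M
      rw [map_sum, H40.incl_setLocIdem]
      simp only [H40.incl_setLocIdem]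
      refine H41.center_ext_omega fun χ => ?_
      simp only [map_sum, H41.omega_blockIdem, Set.mem_singleton_iff]
      by_cases hχ : χ ∈ S2
      · rw [if_pos hχ, Finset.sum_eq_single (⟨χ, hχ⟩ : S2)]
        · simp
        · intro ω _ hne
          exact if_neg fun h => hne (Subtype.ext h.symm)
        · simp
      · rw [if_neg hχ, Finset.sum_eq_zero fun ω _ => if_neg fun h => hχ (by rw [h]; exact ω.2)]
    have h' := congrArg (fun z => ((H41.redZ M z : H41.groupAlgCenter (ResField M) ((G ⧸ N) ⧸ V)) :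
      MonoidAlgebra (ResField M) ((G ⧸ N) ⧸ V))) h
    simpa [setEl] using h'
  -- the corner algebra
  have hts := cornerIdeal_isTwoSided (setEl_comm hS1)
  set mk := cornerMk E
  have hF0E : ∀ a, F0 (a * E) = F0 a := by
    intro a
    funext ω
    show (Matrix.reindexAlgEquiv (ResField M) (ResField M) (finCongr (hdeg2 ω ω.2).1)) (F ω (emb (QuotientGroup.mk' V) (a * E))) =
      (Matrix.reindexAlgEquiv (ResField M) (ResField M) (finCongr (hdeg2 ω ω.2).1)) (F ω (emb (QuotientGroup.mk' V) a))
    congr 1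
    rw [← sub_eq_zero, ← map_sub, hFk, map_mul, hθE, sub_mul, sub_eq_zero, mul_assoc]
    congr 1
    rw [hdec2, Finset.sum_mul, Finset.sum_eq_single ω (fun ω' _ hne => horth2 ω' ω hne) (by simp),
      setEl_idem]
  have hkerle : ∀ a, a ∈ cornerIdeal (e := E) → F0 a = 0 := fun a ha => by
    rw [← hF0E a, show a * E = 0 from ha, map_zero]
  let π : Corner E →ₐ[ResField M] (S2 → Matrix (Fin (f' + 1)) (Fin (f' + 1)) (ResField M)) :=
    Ideal.Quotient.liftₐ (cornerIdeal (e := E)) F0 hkerle
  have hπmk : ∀ a, π (mk a) = F0 a := fun a => rfl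
  have hπs : Function.Surjective π := by
    intro Y
    choose b hb using fun ω : S2 => hFs ω ((Matrix.reindexAlgEquiv (ResField M) (ResField M)
      (finCongr (hdeg2 ω ω.2).1)).symm (Y ω))
    obtain ⟨a, ha⟩ : ∃ a, emb (QuotientGroup.mk' V) a = ∑ ω : S2, b ω * setEl (hdeg2 ω ω.2).2 := by
      have hsur : ∀ c : MonoidAlgebra (ResField M) ((G ⧸ N) ⧸ V),
          ∃ a, emb (QuotientGroup.mk' V) a = c := by
        intro c
        induction c using MonoidAlgebra.induction_linear with
        | zero => exact ⟨0, map_zero _⟩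
        | add x y hx hy =>
          obtain ⟨u, rfl⟩ := hx
          obtain ⟨w, rfl⟩ := hy
          exact ⟨u + w, map_add _ _ _⟩
        | single q r =>
          obtain ⟨g, rfl⟩ := QuotientGroup.mk'_surjective V q
          exact ⟨single g r, by simp [emb]⟩
      exact hsur _
    refine ⟨mk a, funext fun ω => ?_⟩
    show (Matrix.reindexAlgEquiv (ResField M) (ResField M) (finCongr (hdeg2 ω ω.2).1)) (F ω (emb (QuotientGroup.mk' V) a)) = Y ω
    have hω : F ω (b ω * setEl (hdeg2 ω ω.2).2) = F ω (b ω) := by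
      rw [← sub_eq_zero, ← map_sub, hFk, sub_mul, mul_assoc, setEl_idem, sub_self]
    rw [ha, map_sum, Finset.sum_eq_single ω (fun ω' _ hne => (hFk ω _).2 (by
      rw [mul_assoc, horth2 ω' ω hne, mul_zero])) (by simp), hω, hb, AlgEquiv.apply_symm_apply]
  have hπnil : ∀ x, π x = 0 → IsNilpotent x := by
    intro x hx
    obtain ⟨a, rfl⟩ := cornerMk_surjective x
    have h : emb (QuotientGroup.mk' V) a * setEl hS2 = 0 := by
      rw [hdec2, Finset.mul_sum]
      refine Finset.sum_eq_zero fun ω _ => (hFk ω _).1 ?_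
      have := congrFun hx ω
      exact (Matrix.reindexAlgEquiv (ResField M) (ResField M)
        (finCongr (hdeg2 ω ω.2).1)).injective (this.trans (map_zero _).symm)
    obtain ⟨r, hr⟩ := isNilpotent_of_emb_eq_zero V (hDp.map _) hVab
      (a := a * E) (by rw [map_mul, hθE, h])
    refine ⟨r, ?_⟩
    rw [← cornerMk_mul_self (setEl_comm hS1) (setEl_idem hS1), ← map_pow, hr, map_zero]
  have := H41.finite_irrCharacter (G := G ⧸ N)
  have hdim : finrank (ResField M) (Corner E) ≤
      (f' + 1) ^ 2 * finrank (ResField M) (Subalgebra.center (ResField M) (Corner E)) := by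
    rw [finrank_corner, finrank_range_setEl, Finset.sum_congr rfl fun χ hχ => by
      rw [(hdeg χ (H42.mem_blockFinset.1 hχ)).1], Finset.sum_const, smul_eq_mul,
      H42.card_blockFinset, mul_comm]
    refine Nat.mul_le_mul_left _ ((card_le_finrank_setCenter hS1).trans ?_)
    rw [← finrank_map_center]
    refine Submodule.finrank_mono ?_
    rintro _ ⟨z, hz, rfl⟩
    refine ⟨mk z, ?_, cornerVal_mk z⟩
    rw [SetLike.mem_coe, Subalgebra.mem_toSubmodule, Subalgebra.mem_center_iff]
    intro b
    obtain ⟨b, rfl⟩ := cornerMk_surjective b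
    rw [← map_mul, ← map_mul, (Subalgebra.mem_center_iff (R := ResField M)).1 hz b]
  -- apply the rigidity
  have hrig := le_centralizer_of_generated hVab hVp hVT hidx' (H22.split M ((G ⧸ N) ⧸ V))
    hsupp hinv hidem horth hεE hblkη (fun w hw0 hwE => ?_)
  · intro x hx
    exact hcrit x hx (hrig (Subgroup.mem_map_of_mem _ hx))
  · set K := (LinearMap.ker (emb (QuotientGroup.mk' V)).toLinearMap).map mk.toLinearMap
    have hKl : ∀ a, ∀ z ∈ K, a * z ∈ K := by
      rintro a _ ⟨z, hz, rfl⟩
      obtain ⟨a, rfl⟩ := cornerMk_surjective a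
      exact ⟨a * z, by
        show emb (QuotientGroup.mk' V) (a * z) = 0
        rw [map_mul, show emb (QuotientGroup.mk' V) z = 0 from hz, mul_zero], map_mul mk a z⟩
    have hKr : ∀ a, ∀ z ∈ K, z * a ∈ K := by
      rintro a _ ⟨z, hz, rfl⟩
      obtain ⟨a, rfl⟩ := cornerMk_surjective a
      exact ⟨z * a, by
        show emb (QuotientGroup.mk' V) (z * a) = 0
        rw [map_mul, show emb (QuotientGroup.mk' V) z = 0 from hz, zero_mul], map_mul mk z a⟩
    have hmem := mem_span_center_ideal π hπs hπnil hdim K hKl hKr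
      (y := mk w) ⟨w, hw0, rfl⟩
    have hmap := Submodule.mem_map_of_mem (f := cornerVal E) hmem
    rw [cornerVal_mk, hwE, Submodule.map_span] at hmap
    refine Submodule.span_mono ?_ hmap
    rintro _ ⟨_, ⟨z, r, hz, ⟨z0, hz0, rfl⟩, rfl⟩, rfl⟩
    obtain ⟨r, rfl⟩ := cornerMk_surjective r
    have hcz := map_center_le (setEl_comm hS1) (setEl_idem hS1) (w := cornerVal E (mk z0))
      ⟨mk z0, (Subalgebra.mem_center_iff (R := ResField M)).2 hz, rfl⟩
    refine ⟨cornerVal E (mk z0), cornerVal E (mk r), hcz.1, ?_,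
      cornerVal_mul (setEl_comm hS1) (setEl_idem hS1) _ _⟩
    rw [cornerVal_mk, map_mul, show emb (QuotientGroup.mk' V) z0 = 0 from hz0, zero_mul]

/-- Equal height-zero degrees with normal defect group force nilpotency. -/
theorem isNilpotentBlock_of_equal_degrees [D.Normal] (hM : IsPModular p M) (hB : IsPBlock M B)
    (hD : IsDefectGroup p M B D) {f : ℕ}
    (heq : ∀ χ ∈ B, blockHeight p B (χ : G → ℂ) = 0 → charDegree (χ : G → ℂ) = f) :
    IsNilpotentBlock p M B := by
  classical
  have := H41.IsPModular.charP hM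
  obtain ⟨e, hm⟩ := H40.NilpotentBlocks.exists_isMaxEl_of_defect hM hB hD
  have hstab := mem_sup_of_mem_pairStab hM hB hD hm heq
  have hS := H22.split M G
  have hb := H22.isBlockEl_elTop (M := M) hB
  set F := H22.pairFS hS hm.pair
  have hF : H22.IsPairFS p e F := fun _ _ => Iff.rfl
  rw [H22.isNilpotentBlock_top_iff hB]
  refine H22.isNilEl_of_inner hS hb hm hF fun R φ hφ => ?_
  refine H94.alperin_induction hm.pair.pGroup (H22.isSaturated hS hb hm hF)
    (fun R φ => φ ∈ (innerFusionSystem D).Hom R) (fun R S h φ _ hC => H96.res_mem _ hC h)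
    (fun R S φ ψ _ _ hC hC' h => FusionSystem.comp_mem _ hC hC' h) ?_ hφ
  intro U hU hcen hrad α hα
  obtain ⟨f', hf', -⟩ := H22.existsUnique_ple hS hm.pair U hU.1
  -- `U = D`
  obtain rfl : U = D := by
    by_contra hne
    obtain ⟨d, ⟨hd, hdN⟩, hdU⟩ := SetLike.exists_of_lt
      (H94.lt_normalizerIn hm.pair.pGroup (lt_of_le_of_ne hU.1 hne))
    have hnormal : ((autInducedBy D U).subgroupOf (F.autGroup U)).Normal := by
      refine ⟨fun β hβ γ => ?_⟩
      obtain ⟨d, hd, hβd⟩ := H96.mem_autInducedBy.1 (Subgroup.mem_subgroupOf.1 hβ)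
      obtain ⟨t, ht⟩ : ((γ : F.autGroup U) : MulAut U) ∈ (H22.stabConj U f').range := by
        rw [H22.range_stabConj hS hm.pair hF hf']; exact γ.2
      rw [Subgroup.mem_subgroupOf]
      refine H96.mem_autInducedBy.2 ⟨(t : G) * d * (t : G)⁻¹,
        (inferInstance : D.Normal).conj_mem d hd _, fun x => ?_⟩
      simp only [Subgroup.coe_mul, Subgroup.coe_inv, ← ht, MulAut.mul_apply]
      rw [H22.coe_stabConj, hβd]
      have hi : (((H22.stabConj U f' t)⁻¹ x : U) : G) = (t : G)⁻¹ * x * (t : G) := by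
        rw [← map_inv, H22.coe_stabConj, InvMemClass.coe_inv, inv_inv]
      rw [hi]; group
    have hle := H40.le_pCore hnormal
      ((H94.isPGroup_autInducedBy (P := U) hm.pair.pGroup).comap_subtype)
    let β : MulAut U := Subgroup.normalizerMonoidHom U ⟨d, hdN⟩
    have hβ : β ∈ autInducedBy D U := H96.mem_autInducedBy.2 ⟨d, hd, fun x => rfl⟩
    have hβF : β ∈ F.autGroup U := H96.autInducedBy_le_autGroup F hU.1 hβ
    have hβI : β ∈ Inn U := by
      rw [← hrad.2]
      exact ⟨⟨β, hβF⟩, hle (Subgroup.mem_subgroupOf.2 hβ), rfl⟩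
    obtain ⟨u, hu, huβ⟩ := H96.mem_inn_iff.1 hβI
    refine hdU ?_
    have hc : u⁻¹ * d ∈ FusionSystem.centralizerIn D U := by
      refine Subgroup.mem_inf.2 ⟨mul_mem (inv_mem (hU.1 hu)) hd,
        Subgroup.mem_centralizer_iff.2 fun x hx => ?_⟩
      have h : d * x * d⁻¹ = u * x * u⁻¹ := huβ ⟨x, hx⟩
      calc x * (u⁻¹ * d) = u⁻¹ * (u * x * u⁻¹) * d := by group
        _ = u⁻¹ * (d * x * d⁻¹) * d := by rw [h]
        _ = u⁻¹ * d * x := by group
    have hself : FusionSystem.centralizerIn D U ≤ U := hcen.2 U (H22.isConj_iff_carry hF |>.2 ⟨1,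
      H22.carry_of_mem hS hm.pair hU.1 (one_mem D), H22.cS_eq_self (one_mem _)⟩)
    have := mul_mem hu (hself hc)
    rwa [mul_inv_cancel_left] at this
  obtain ⟨t, ht⟩ : α ∈ (H22.stabConj U e).range := by
    rw [H22.range_stabConj hS hm.pair hF Relation.ReflTransGen.refl]; exact hα
  have htL := hstab _ t.2
  rw [← SetLike.mem_coe, Subgroup.coe_mul_of_left_le_normalizer_right U _
    (by rw [Subgroup.normalizer_eq_top (H := Subgroup.centralizer (U : Set G))]; exact le_top),
    Set.mem_mul] at htL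
  obtain ⟨d, hd, c, hc, hdc⟩ := htL
  refine ⟨le_rfl, d, hd, fun x => ?_⟩
  show ((α x : U) : G) = d * x * d⁻¹
  rw [← ht, H22.coe_stabConj, ← hdc]
  have hcx := Subgroup.mem_centralizer_iff.1 hc x x.2
  calc d * c * (x : G) * (d * c)⁻¹ = d * (c * x) * c⁻¹ * d⁻¹ := by group
    _ = d * ((x : G) * c) * c⁻¹ * d⁻¹ := by rw [hcx]
    _ = _ := by group

end Cfsg.Agent.H31.NormalDefectDegrees
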