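import Cfsg.Agent.H31.NormalDefectDegrees.Corner
import Cfsg.Agent.H31.NormalDefectDegrees.Derivation
import Cfsg.Agent.H31.NormalDefectDegrees.CenterMatrix
import Cfsg.Agent.H31.TwoChar.Reduction
import Cfsg.Agent.H40.QuotientBlocks
import Cfsg.Agent.H40.BlockDefect
import Cfsg.Agent.H43.D1.ModP
import Cfsg.Agent.H22.PairBridge
import Mathlib

/-!
# The reduced algebra of a union of blocks
-/

set_option autoImplicit false
set_option linter.unusedSectionVars false
set_option maxHeartbeats 1000000
set_option synthInstance.maxHeartbeats 200000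

namespace Cfsg.Agent.H31.NormalDefectDegrees

open Cfsg Module
open Cfsg.Agent.H40 (BlockClosed setLocIdem quotSet)
open Cfsg.Agent.H41 (ResField localRing res redZ groupAlgCenter)
open Cfsg.Agent.H31.TwoChar (upC downK)

universe u

variable {G : Type u} [Group G] [Finite G] {M : Ideal Cfsg.AlgInt} [M.IsMaximal]
  {S : Set (IrrCharacter G)}

/-- The idempotent of a union of blocks modulo `M`. -/
noncomputable def setEl (hS : BlockClosed M S) : MonoidAlgebra (ResField M) G :=
  ((redZ M (setLocIdem hS) : groupAlgCenter (ResField M) G) : MonoidAlgebra (ResField M) G)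

theorem setEl_comm (hS : BlockClosed M S) (a : MonoidAlgebra (ResField M) G) :
    a * setEl hS = setEl hS * a :=
  Subalgebra.mem_center_iff.1 (redZ M (setLocIdem hS)).2 a

theorem setEl_idem (hS : BlockClosed M S) : setEl hS * setEl hS = setEl hS := by
  show ((redZ M (setLocIdem hS) * redZ M (setLocIdem hS) : groupAlgCenter (ResField M) G) :
    MonoidAlgebra (ResField M) G) = _
  rw [← map_mul, (H40.isIdempotentElem_setLocIdem hS).eq]
  rfl

theorem coeff_setEl (hS : BlockClosed M S) (g : G) :
    (setEl hS).coeff g = H22.resT M (Cfsg.blockCoeff S g) := by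
  rw [setEl, H40.coeff_redZ_setLocIdem, H22.resT_of_mem (hS.blockCoeff_mem g)]
  rfl

theorem elTop_eq_setEl {B : Set (IrrCharacter G)} (hB : IsPBlock M B) :
    H22.elTop M B = setEl (H40.blockClosed_of_isPBlock hB) := by
  refine H40.ext_coeff fun g => ?_
  rw [H22.coeff_elTop, coeff_setEl]

open scoped Classical in
/-- The dimension of the reduced algebra of a union of blocks. -/
theorem finrank_range_setEl (hS : BlockClosed M S) :
    finrank (ResField M) (LinearMap.range (LinearMap.mulRight (ResField M) (setEl hS))) =
      ∑ χ ∈ H42.blockFinset S, charDegree (χ : G → ℂ) ^ 2 := by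
  have := Fintype.ofFinite G
  set E : MonoidAlgebra (localRing M) G :=
    ((setLocIdem hS : groupAlgCenter (localRing M) G) : MonoidAlgebra (localRing M) G) with hEdef
  have hEE : E * E = E := congrArg Subtype.val (H40.isIdempotentElem_setLocIdem hS).eq
  have hE' : (1 - E) * (1 - E) = 1 - E := (IsIdempotentElem.one_sub hEE).eq
  have hdown : setEl hS = downK E := rfl
  rw [hdown]
  have hup : finrank ℂ (LinearMap.range (LinearMap.mulRight ℂ (upC E))) =
      ∑ χ ∈ H42.blockFinset S, charDegree (χ : G → ℂ) ^ 2 := by
    have h := TwoChar.finrank_range_eq_coeff (upC E) (by rw [← map_mul, hEE])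
    have hc : (upC E).coeff 1 = blockCoeff S 1 := by
      rw [← H40.coe_coeff_setLocIdem hS 1]
      exact MonoidAlgebra.coeff_mapRingHom _ _ _
    rw [hc, H41.blockCoeff_eq_sum, ← mul_assoc,
      mul_inv_cancel₀ (Nat.cast_ne_zero.2 Nat.card_pos.ne'), one_mul] at h
    apply Nat.cast_injective (R := ℂ)
    rw [h]
    push_cast
    refine Finset.sum_congr rfl fun χ _ => ?_
    rw [H42.irr_one_eq, Complex.conj_natCast, sq]
  have h1 := TwoChar.finrank_range_down_le E hEE
  have h2 := TwoChar.finrank_range_down_le (1 - E) hE'
  have h3 := TwoChar.finrank_range_mulRight (downK E) (by rw [← map_mul, hEE])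
  have h4 := TwoChar.finrank_range_mulRight (upC E) (by rw [← map_mul, hEE])
  rw [map_sub, map_one, map_sub, map_one] at h2
  omega

open scoped Classical in
/-- Central elements of the reduced algebra of a union of blocks span at most its size. -/
theorem finrank_setCenter_le (hS : BlockClosed M S)
    (W : Submodule (ResField M) (MonoidAlgebra (ResField M) G))
    (hW : ∀ w ∈ W, (∀ a, a * w = w * a) ∧ w * setEl hS = w) :
    finrank (ResField M) W ≤ Nat.card S := by
  have := Fintype.ofFinite G
  have := H41.finite_irrCharacter (G := G)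
  have : FiniteDimensional (ResField M) (MonoidAlgebra (ResField M) G) :=
    Module.Finite.of_basis (MonoidAlgebra.basis G (ResField M))
  obtain ⟨b⟩ : Nonempty (Basis (Fin (finrank (ResField M) W)) (ResField M) W) :=
    ⟨Module.finBasis _ _⟩
  choose w hw using fun i => H41.redZ_surjective M (G := G)
    ⟨(b i : MonoidAlgebra (ResField M) G), Subalgebra.mem_center_iff.2 (hW _ (b i).2).1⟩
  let v : Fin (finrank (ResField M) W) → MonoidAlgebra (localRing M) G := fun i =>
    ((w i * setLocIdem hS : groupAlgCenter (localRing M) G) : MonoidAlgebra (localRing M) G)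
  have := Fintype.ofFinite S
  let e : S → MonoidAlgebra ℂ G := fun χ =>
    ((H41.blockIdem {(χ : IrrCharacter G)} : groupAlgCenter ℂ G) : MonoidAlgebra ℂ G)
  have h := TwoChar.card_le_finrank v (by
    have hv : (fun i => downK (v i)) = fun i => (b i : MonoidAlgebra (ResField M) G) := by
      funext i
      have e1 : downK (v i) = ((redZ M (w i * setLocIdem hS) :
          groupAlgCenter (ResField M) G) : MonoidAlgebra (ResField M) G) := rfl
      rw [e1, map_mul, hw]
      exact (hW _ (b i).2).2
    rw [hv]
    exact TwoChar.linearIndependent_coe_basis _ b)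
    (Submodule.span ℂ (Set.range e)) fun i => by
      set z := H41.incl M (w i * setLocIdem hS)
      have hz : z = ∑ χ : S, H41.omega (χ : IrrCharacter G) z • H41.blockIdem {(χ : IrrCharacter G)} := by
        refine H41.center_ext_omega fun ψ => ?_
        simp only [map_sum, map_smul, smul_eq_mul, H41.omega_blockIdem, Set.mem_singleton_iff,
          mul_ite, mul_one, mul_zero]
        by_cases hψ : ψ ∈ S
        · rw [Finset.sum_eq_single (⟨ψ, hψ⟩ : S)]
          · simp
          · intro χ _ hne
            rw [if_neg fun h => hne (Subtype.ext h.symm)]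
          · simp
        · rw [Finset.sum_eq_zero fun χ _ => if_neg fun h => hψ (by rw [h]; exact χ.2)]
          simp [z, H40.incl_setLocIdem, H41.omega_blockIdem, hψ]
      show (z : MonoidAlgebra ℂ G) ∈ _
      rw [hz, AddSubmonoidClass.coe_finsetSum]
      exact Submodule.sum_mem _ fun χ _ =>
        Submodule.smul_mem _ _ (Submodule.subset_span ⟨χ, rfl⟩)
  rw [Fintype.card_fin] at h
  exact h.trans ((finrank_range_le_card e).trans_eq (Nat.card_eq_fintype_card).symm)

/-- The centre of the reduced algebra of a union of blocks has exactly its size. -/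
theorem card_le_finrank_setCenter (hS : BlockClosed M S) :
    Nat.card S ≤ finrank (ResField M)
      ((Subalgebra.toSubmodule (groupAlgCenter (ResField M) G)).map
        (LinearMap.mulRight (ResField M) (setEl hS))) := by
  classical
  have := Fintype.ofFinite G
  have := H41.finite_irrCharacter (G := G)
  have : FiniteDimensional (ResField M) (MonoidAlgebra (ResField M) G) :=
    Module.Finite.of_basis (MonoidAlgebra.basis G (ResField M))
  set Z := Subalgebra.toSubmodule (groupAlgCenter (ResField M) G)
  have hZ : Nat.card (IrrCharacter G) ≤ finrank (ResField M) Z := by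
    rw [H26.card_irr_eq_card_conjClasses]
    have := Fintype.ofFinite (ConjClasses G)
    let ψ : (ConjClasses G → ResField M) →ₗ[ResField M] Z :=
      { toFun := fun F => ⟨(H41.centerOfFun (fun g => F (ConjClasses.mk g)) (fun g h =>
            congrArg F (ConjClasses.mk_eq_mk_iff_isConj.2 (isConj_iff.2 ⟨h⁻¹, by group⟩))) :
              groupAlgCenter (ResField M) G), SetLike.coe_mem _⟩
        map_add' := fun F F' => Subtype.ext (H40.ext_coeff fun g => by simp)
        map_smul' := fun r F => Subtype.ext (H40.ext_coeff fun g => by simp) }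
    have hψ : Function.Injective ψ := fun F F' h => funext fun c => by
      obtain ⟨g, rfl⟩ := ConjClasses.mk_surjective c
      have := congrArg (fun z : Z => (z : MonoidAlgebra (ResField M) G).coeff g) h
      simpa [ψ] using this
    have := LinearMap.finrank_le_finrank_of_injective hψ
    rwa [Module.finrank_fintype_fun_eq_card, ← Nat.card_eq_fintype_card] at this
  set L := LinearMap.mulRight (ResField M) (setEl hS)
  set L' := LinearMap.mulRight (ResField M) (setEl hS.compl)
  have hsum : setEl hS + setEl hS.compl = 1 := by
    have h : setLocIdem hS + setLocIdem hS.compl = 1 := by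
      apply H41.incl_injective M
      rw [map_add, map_one, H40.incl_setLocIdem, H40.incl_setLocIdem]
      refine H41.center_ext_omega fun χ => ?_
      rw [map_add, map_one, H41.omega_blockIdem, H41.omega_blockIdem]
      by_cases hχ : χ ∈ S <;> simp [hχ]
    have h' := congrArg (fun z => ((redZ M z : groupAlgCenter (ResField M) G) :
      MonoidAlgebra (ResField M) G)) h
    simpa [setEl] using h'
  have hdec : Z ≤ Z.map L ⊔ Z.map L' := fun z hz => by
    have : z = L z + L' z := by
      show z = z * setEl hS + z * setEl hS.compl
      rw [← mul_add, hsum, mul_one]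
    rw [this]
    exact Submodule.add_mem_sup (Submodule.mem_map_of_mem hz) (Submodule.mem_map_of_mem hz)
  have hle' : finrank (ResField M) (Z.map L') ≤ Nat.card (Sᶜ : Set (IrrCharacter G)) := by
    refine finrank_setCenter_le hS.compl _ ?_
    rintro _ ⟨z, hz, rfl⟩
    refine ⟨fun a => ?_, by
      show z * setEl hS.compl * setEl hS.compl = z * setEl hS.compl
      rw [mul_assoc, setEl_idem]⟩
    show a * (z * setEl hS.compl) = z * setEl hS.compl * a
    rw [← mul_assoc, (Subalgebra.mem_center_iff (R := ResField M)).1 hz a, mul_assoc, setEl_comm hS.compl a, ← mul_assoc]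
  have h1 := (Submodule.finrank_mono hdec).trans (Submodule.finrank_add_le_finrank_add_finrank _ _)
  have h2 : Nat.card S + Nat.card (Sᶜ : Set (IrrCharacter G)) = Nat.card (IrrCharacter G) := by
    rw [Nat.card_coe_set_eq, Nat.card_coe_set_eq, Set.ncard_add_ncard_compl]
  omega

/-- The image in a quotient. -/
theorem emb_setEl (N : Subgroup G) [N.Normal] (hS : BlockClosed M S)
    (hq : BlockClosed M (quotSet N S)) :
    H22.emb (QuotientGroup.mk' N) (setEl hS) = setEl hq := by
  classical
  have := Fintype.ofFinite G
  refine H40.ext_coeff fun q => ?_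
  rw [coeff_emb_mk, coeff_setEl, H40.blockCoeff_quotSet,
    H22.resT_of_mem (Subring.sum_mem _ fun g _ => hS.blockCoeff_mem g)]
  simp only [coeff_setEl, H22.resT_of_mem (hS.blockCoeff_mem _)]
  rw [← map_sum]
  congr 1
  exact Subtype.ext (by rw [AddSubmonoidClass.coe_finsetSum])

theorem blockClosed_quotSet' (N : Subgroup G) [N.Normal] (hS : BlockClosed M S) :
    BlockClosed M (quotSet N S) := fun _ _ h hφ => hS _ _ (H40.sameBlock_inflate N h) hφ

open scoped Classical in
/-- A character of full degree gives a matrix algebra. -/
theorem exists_matrix_singleton {χ : IrrCharacter G} (hS : BlockClosed M {χ}) :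
    ∃ F : MonoidAlgebra (ResField M) G →ₐ[ResField M]
        Matrix (Fin (charDegree (χ : G → ℂ))) (Fin (charDegree (χ : G → ℂ))) (ResField M),
      Function.Surjective F ∧ ∀ a, F a = 0 ↔ a * setEl hS = 0 := by
  have := H43.D1.isAlgClosed_resField M
  have := H41.finite_irrCharacter (G := G)
  set e := setEl hS
  have hts := cornerIdeal_isTwoSided (setEl_comm hS)
  have hdim : finrank (ResField M) (Corner e) = charDegree (χ : G → ℂ) ^ 2 := by
    rw [finrank_corner, finrank_range_setEl,
      show H42.blockFinset ({χ} : Set (IrrCharacter G)) = {χ} from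
        Finset.ext fun ψ => by simp [H42.mem_blockFinset]]
    simp
  have : Nontrivial (Corner e) := Module.nontrivial_of_finrank_pos (R := ResField M) (by
    rw [hdim]; exact pow_pos (H42.charDegree_pos χ) 2)
  have hcomm : finrank (ResField M) (Corner e ⧸ TwoChar.comm (ResField M) (Corner e)) ≤ 1 := by
    refine (TwoChar.finrank_quot_comm_le cornerForm (cornerForm_symm (setEl_comm hS) (setEl_idem hS))
      fun x => cornerForm_nondeg (setEl_comm hS) (setEl_idem hS)).trans ?_
    rw [← finrank_map_center]
    refine (finrank_setCenter_le hS _ fun w hw =>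
      map_center_le (setEl_comm hS) (setEl_idem hS) hw).trans_eq ?_
    simp
  obtain ⟨F, hF⟩ := exists_matrix_of_comm_le_one cornerForm
    (cornerForm_symm (setEl_comm hS) (setEl_idem hS))
    (fun x => cornerForm_nondeg (setEl_comm hS) (setEl_idem hS)) hcomm hdim
  refine ⟨F.comp (cornerMk e), hF.2.comp cornerMk_surjective, fun a => ?_⟩
  rw [AlgHom.comp_apply, map_eq_zero_iff F hF.1, cornerMk_eq_zero]

end Cfsg.Agent.H31.NormalDefectDegrees
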